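import Cfsg.Agent.H398.RG.Comp

/-!
# S3509: the component of a long root group from a base pair (helper398)

`K` a finite subgroup of `G` with `O_p(K) = 1`, `X, Y, P, Q, T ≤ K`, `K = ⟨P, Q, T⟩`, `P` and `T` normalise `X`, `Q` normalises `Y`,
`Y` is conjugate to `X`, `⟨X, Y⟩` is not a `p`-group and every pair `(X, k X k⁻¹)` generates a `p`-group or is conjugate to
`(X, Y)` in `K`; `M = MK K X = ⟨X ^ K⟩`.

* `Base.main` : `M` is perfect, every normal subgroup of `M` is `M` or central, if `cond` holds: `X ≤ N` for every normal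
  subgroup `N` of `M` with `Y ≤ X N`;
* `cond_of_perfect` : `⟨X, Y⟩` perfect;
* `cond_of_prime` : `|X| = p`, `ρ ∈ ⟨X, Y⟩` of order prime to `p`, the normal closure of `ρ` meets an `M`-conjugate of `X`
  nontrivially;
* `simple_of` : `M / Z(M)` is simple and not commutative.
-/

set_option autoImplicit false
set_option linter.unusedSectionVars false

namespace Cfsg.Agent.H398.RG

open Cfsg Cfsg.Agent.Lib.Cores
open scoped commutatorElement

variable {G : Type*} [Group G]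

theorem cj_one (X : Subgroup G) : cj (1 : G) X = X := by
  ext y
  rw [mem_cj]
  simp

theorem cj_mono {g : G} {X Z : Subgroup G} (h : X ≤ Z) : cj g X ≤ cj g Z := Subgroup.map_mono h

theorem conj_mem_cj' {g : G} {X : Subgroup G} {x : G} (hx : x ∈ X) : g * x * g⁻¹ ∈ cj g X := ⟨x, hx, rfl⟩

/-- the subgroup generated by the `K`-conjugates of `X` -/
def MK (K X : Subgroup G) : Subgroup G := Subgroup.closure {z | ∃ k ∈ K, ∃ x ∈ X, z = k * x * k⁻¹}

theorem cj_le_MK {K X : Subgroup G} {k : G} (hk : k ∈ K) : cj k X ≤ MK K X := by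
  rintro _ ⟨x, hx, rfl⟩
  exact Subgroup.subset_closure ⟨k, hk, x, hx, rfl⟩

theorem le_MK (K X : Subgroup G) : X ≤ MK K X := by
  have h := cj_le_MK (X := X) K.one_mem
  rwa [cj_one] at h

theorem MK_le {K X Z : Subgroup G} (h : ∀ k ∈ K, ∀ x ∈ X, k * x * k⁻¹ ∈ Z) : MK K X ≤ Z := by
  refine (Subgroup.closure_le _).2 ?_
  rintro _ ⟨k, hk, x, hx, rfl⟩
  exact h k hk x hx

theorem MK_le_self {K X : Subgroup G} (hX : X ≤ K) : MK K X ≤ K :=
  MK_le fun _ hk _ hx => K.mul_mem (K.mul_mem hk (hX hx)) (K.inv_mem hk)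

theorem conj_MK {K X : Subgroup G} {k m : G} (hk : k ∈ K) (hm : m ∈ MK K X) : k * m * k⁻¹ ∈ MK K X := by
  have h1 : MK K X ≤ (MK K X).comap (MulAut.conj k).toMonoidHom := by
    refine MK_le fun c hc x hx => ?_
    change k * (c * x * c⁻¹) * k⁻¹ ∈ MK K X
    have h2 : k * (c * x * c⁻¹) * k⁻¹ = (k * c) * x * (k * c)⁻¹ := by group
    rw [h2]
    exact Subgroup.subset_closure ⟨k * c, K.mul_mem hk hc, x, hx, rfl⟩
  exact h1 hm

theorem cj_MK {K X : Subgroup G} {k : G} (hk : k ∈ K) : cj k (MK K X) = MK K X := by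
  ext m
  rw [mem_cj]
  constructor
  · intro h
    have h1 := conj_MK hk h
    have h2 : k * (k⁻¹ * m * k) * k⁻¹ = m := by group
    rwa [h2] at h1
  · intro h
    have h1 := conj_MK (K.inv_mem hk) h
    rwa [inv_inv] at h1

theorem le_normalizer_MK (K X : Subgroup G) : K ≤ Subgroup.normalizer (MK K X : Set G) := by
  intro k hk
  rw [Subgroup.mem_normalizer_iff]
  intro m
  constructor
  · exact conj_MK hk
  · intro h
    have h1 := conj_MK (K.inv_mem hk) h
    have h2 : k⁻¹ * (k * m * k⁻¹) * k⁻¹⁻¹ = m := by group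
    rwa [h2] at h1

/-- the base pair -/
structure Base (p : ℕ) (K X Y P Q T : Subgroup G) : Prop where
  leX : X ≤ K
  leP : P ≤ K
  leQ : Q ≤ K
  leT : T ≤ K
  gen : K ≤ P ⊔ Q ⊔ T
  hP : ∀ g ∈ P, ∀ x ∈ X, g * x * g⁻¹ ∈ X
  hQ : ∀ g ∈ Q, ∀ y ∈ Y, g * y * g⁻¹ ∈ Y
  hT : ∀ g ∈ T, ∀ x ∈ X, g * x * g⁻¹ ∈ X
  pgrp : IsPGroup p X
  ne : X ≠ ⊥
  npg : ¬ IsPGroup p ↥(X ⊔ Y : Subgroup G)
  conjY : ∃ k ∈ K, cj k X = Y
  pair : ∀ g ∈ K, IsPGroup p ↥(X ⊔ cj g X : Subgroup G) ∨ ∃ u ∈ K, cj u X = X ∧ cj u (cj g X) = Y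
  core : pCore p ↥K = ⊥

/-- the condition on the base pair -/
def Cond (K X Y : Subgroup G) : Prop :=
  ∀ N : Subgroup G, N ≤ MK K X → (∀ m ∈ MK K X, ∀ n ∈ N, m * n * m⁻¹ ∈ N) → (∀ y ∈ Y, ∃ x ∈ X, ∃ n ∈ N, y = x * n) → X ≤ N

theorem subgroupOf_cj {M : Subgroup G} (g : M) (Z : Subgroup G) : cj g (Z.subgroupOf M) = (cj (g : G) Z).subgroupOf M := by
  ext y
  rw [mem_cj, Subgroup.mem_subgroupOf, Subgroup.mem_subgroupOf, mem_cj]
  rfl

theorem isPGroup_cj {p : ℕ} {g : G} {Z : Subgroup G} (h : IsPGroup p Z) : IsPGroup p (cj g Z) := h.map _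

theorem cj_sup (g : G) (X Z : Subgroup G) : cj g (X ⊔ Z) = cj g X ⊔ cj g Z := Subgroup.map_sup _ _ _

/-- `M / Z(M)` is simple -/
theorem simple_of {M : Subgroup G} (hM : M ≠ ⊥) (hperf : ⁅M, M⁆ = M)
    (hq : ∀ N : Subgroup G, N ≤ M → (∀ m ∈ M, ∀ n ∈ N, m * n * m⁻¹ ∈ N) → N = M ∨ ∀ m ∈ M, ∀ n ∈ N, m * n = n * m) :
    IsSimpleGroup (M ⧸ Subgroup.center M) ∧ ¬ IsMulCommutative (M ⧸ Subgroup.center M) := by
  have hperf' : commutator M = ⊤ := by
    rw [eq_top_iff]
    rintro ⟨d, hd⟩ -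
    have h6 : d ∈ ⁅M, M⁆ := by rw [hperf]; exact hd
    have h7 : (commutator M).map M.subtype = ⁅M, M⁆ := by
      rw [commutator_def, Subgroup.map_commutator, ← MonoidHom.range_eq_map, Subgroup.range_subtype]
    rw [← h7] at h6
    obtain ⟨e, he, hed⟩ := h6
    have h8 : e = ⟨d, hd⟩ := Subtype.ext hed
    rwa [← h8]
  have hZ : Subgroup.center M ≠ ⊤ := by
    intro hZ
    have h1 : commutator M = ⊥ := by
      rw [commutator_def, Subgroup.commutator_eq_bot_iff_le_centralizer]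
      intro m _
      rw [Subgroup.mem_centralizer_iff]
      intro n _
      have h2 : n ∈ Subgroup.center M := by rw [hZ]; trivial
      exact (Subgroup.mem_center_iff.1 h2 m).symm
    rw [hperf'] at h1
    apply hM
    rw [eq_bot_iff]
    intro x hx
    have h3 : (⟨x, hx⟩ : M) ∈ (⊤ : Subgroup M) := trivial
    rw [h1, Subgroup.mem_bot] at h3
    exact congrArg Subtype.val h3
  have hnt : Nontrivial (M ⧸ Subgroup.center M) := QuotientGroup.nontrivial_iff.2 hZ
  refine ⟨⟨fun K hK => ?_⟩, ?_⟩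
  · let N : Subgroup M := K.comap (QuotientGroup.mk' (Subgroup.center M))
    have hN : N.Normal := hK.comap _
    have h1 := hq (N.map M.subtype) (by
      rintro _ ⟨n, hn, rfl⟩
      exact n.2) (by
      rintro m hm _ ⟨n, hn, rfl⟩
      exact ⟨⟨m, hm⟩ * n * ⟨m, hm⟩⁻¹, hN.conj_mem n hn ⟨m, hm⟩, rfl⟩)
    rcases h1 with h1 | h1
    · right
      rw [eq_top_iff]
      intro y _
      obtain ⟨m, rfl⟩ := QuotientGroup.mk'_surjective (Subgroup.center M) y
      have h2 : (m : G) ∈ N.map M.subtype := by rw [h1]; exact m.2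
      obtain ⟨n, hn, hnm⟩ := h2
      have h3 : n = m := Subtype.ext hnm
      rw [← h3]
      exact hn
    · left
      rw [eq_bot_iff]
      intro y hy
      obtain ⟨m, rfl⟩ := QuotientGroup.mk'_surjective (Subgroup.center M) y
      rw [Subgroup.mem_bot]
      refine (QuotientGroup.eq_one_iff m).2 (Subgroup.mem_center_iff.2 fun g => ?_)
      exact Subtype.ext (h1 g g.2 m ⟨m, hy, rfl⟩)
  · intro hcom
    have h1 : commutator M ≤ Subgroup.center M := by
      rw [commutator_def, Subgroup.commutator_le]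
      intro a _ b _
      refine (QuotientGroup.eq_one_iff _).1 ?_
      have h2 : (QuotientGroup.mk' (Subgroup.center M)) ⁅a, b⁆ = 1 := by
        rw [map_commutatorElement, commutatorElement_eq_one_iff_commute]
        exact hcom.is_comm.comm _ _
      exact h2
    rw [hperf'] at h1
    exact hZ (eq_top_iff.2 h1)

section main

variable {p : ℕ} [Fact p.Prime] {K X Y P Q T : Subgroup G}

/-- **the component of a long root group** -/
theorem Base.main [Finite K] (h : Base p K X Y P Q T) (hc : Cond K X Y) :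
    ⁅MK K X, MK K X⁆ = MK K X ∧ ∀ N : Subgroup G, N ≤ MK K X → (∀ m ∈ MK K X, ∀ n ∈ N, m * n * m⁻¹ ∈ N) →
      N = MK K X ∨ ∀ m ∈ MK K X, ∀ n ∈ N, m * n = n * m := by
  obtain ⟨M, hMd⟩ : ∃ M, M = MK K X := ⟨_, rfl⟩
  have hMK : M ≤ K := hMd ▸ MK_le_self h.leX
  have hMn : ∀ k ∈ K, ∀ m ∈ M, k * m * k⁻¹ ∈ M := fun k hk m hm => by
    rw [hMd] at hm ⊢
    exact conj_MK hk hm
  have hfin : Finite M := Finite.of_injective _ (Subgroup.inclusion_injective hMK)
  have hXM : X ≤ M := hMd ▸ le_MK K X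
  have hcM : ∀ k ∈ K, cj k X ≤ M := fun k hk => hMd ▸ cj_le_MK hk
  let R : Set (Subgroup M) := {Z | ∃ k ∈ K, Z = (cj k X).subgroupOf M}
  have hXR : X.subgroupOf M ∈ R := ⟨1, K.one_mem, by rw [cj_one]⟩
  obtain ⟨k0, hk0, hY⟩ := h.conjY
  have hYM : Y ≤ M := hY ▸ hcM k0 hk0
  have hYR : Y.subgroupOf M ∈ R := ⟨k0, hk0, by rw [hY]⟩
  -- transport of normal subgroups
  have hR : Rts p R := by
    refine ⟨?_, ?_, ?_, ?_, ?_⟩
    · rintro _ ⟨k, hk, rfl⟩ g
      exact ⟨g * k, K.mul_mem (hMK g.2) hk, by rw [subgroupOf_cj, ← cj_mul]⟩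
    · rintro _ ⟨k, hk, rfl⟩
      exact (isPGroup_cj h.pgrp).comap_subtype (K := M)
    · rintro _ ⟨k, hk, rfl⟩ hbot
      rw [Subgroup.subgroupOf_eq_bot] at hbot
      apply h.ne
      rw [eq_bot_iff]
      intro x hx
      have h1 : k * x * k⁻¹ ∈ cj k X := conj_mem_cj' hx
      have h2 := Subgroup.disjoint_def.1 hbot h1 (hcM k hk h1)
      rw [Subgroup.mem_bot]
      have h3 : x = k⁻¹ * (k * x * k⁻¹) * k := by group
      rw [h3, h2]
      group
    · rintro _ ⟨k1, hk1, rfl⟩ _ ⟨k2, hk2, rfl⟩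
      rcases h.pair (k1⁻¹ * k2) (K.mul_mem (K.inv_mem hk1) hk2) with h1 | ⟨u, hu, hu1, hu2⟩
      · left
        have h2 : IsPGroup p ↥(cj k1 X ⊔ cj k2 X : Subgroup G) := by
          have h3 := isPGroup_cj (g := k1) h1
          rwa [cj_sup, ← cj_mul, mul_inv_cancel_left] at h3
        refine (h2.comap_subtype (K := M)).to_le (sup_le ?_ ?_)
        · intro y hy
          exact Subgroup.mem_sup_left (Subgroup.mem_subgroupOf.1 hy)
        · intro y hy
          exact Subgroup.mem_sup_right (Subgroup.mem_subgroupOf.1 hy)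
      · right
        intro N hN hle
        let w : G := u * k1⁻¹
        have hw : w ∈ K := K.mul_mem hu (K.inv_mem hk1)
        have hw1 : cj w (cj k1 X) = X := by
          rw [← cj_mul, inv_mul_cancel_right, hu1]
        have hw2 : cj w (cj k2 X) = Y := by
          rw [← cj_mul, show w * k2 = u * (k1⁻¹ * k2) by simp only [w]; group, cj_mul, hu2]
        have hN2 : ∀ m ∈ M, ∀ n ∈ N.map M.subtype, m * n * m⁻¹ ∈ N.map M.subtype := by
          rintro m hm _ ⟨n, hn, rfl⟩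
          exact ⟨⟨m, hm⟩ * n * ⟨m, hm⟩⁻¹, hN.conj_mem n hn ⟨m, hm⟩, rfl⟩
        have h3 := hc (cj w (N.map M.subtype)) (by
            rintro _ ⟨_, ⟨n, hn, rfl⟩, rfl⟩
            rw [← hMd]
            exact hMn w hw n n.2) (by
            rw [← hMd]
            rintro m hm n hn
            rw [mem_cj] at hn ⊢
            have h4 := hN2 (w⁻¹ * m * w) (by
              have := hMn w⁻¹ (K.inv_mem hw) m hm
              rwa [inv_inv] at this) _ hn
            have h5 : w⁻¹ * m * w * (w⁻¹ * n * w) * (w⁻¹ * m * w)⁻¹ = w⁻¹ * (m * n * m⁻¹) * w := by group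
            rwa [h5] at h4) (by
            intro y hy
            rw [← hw2, mem_cj] at hy
            have hyM : w⁻¹ * y * w ∈ M := hcM k2 hk2 hy
            have h4 : (⟨w⁻¹ * y * w, hyM⟩ : M) ∈ (cj k1 X).subgroupOf M ⊔ N := hle (Subgroup.mem_subgroupOf.2 hy)
            obtain ⟨z, hz, n, hn, hzn⟩ := Subgroup.mem_sup_of_normal_right.1 h4
            have h5 : (z : G) * n = w⁻¹ * y * w := congrArg Subtype.val hzn
            refine ⟨w * z * w⁻¹, ?_, w * n * w⁻¹, ⟨n, ⟨n, hn, rfl⟩, rfl⟩, ?_⟩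
            · rw [← hw1]
              exact conj_mem_cj' (Subgroup.mem_subgroupOf.1 hz)
            · have h6 : w * z * w⁻¹ * (w * n * w⁻¹) = w * (z * n) * w⁻¹ := by group
              rw [h6, h5]
              group)
        intro z hz
        have hz' := Subgroup.mem_subgroupOf.1 hz
        have h4 : w * z * w⁻¹ ∈ X := by rw [← hw1]; exact conj_mem_cj' hz'
        have h5 := h3 h4
        rw [mem_cj] at h5
        have h6 : w⁻¹ * (w * z * w⁻¹) * w = z := by group
        rw [h6] at h5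
        obtain ⟨n, hn, hnz⟩ := h5
        have h7 : n = z := Subtype.ext hnz
        rw [← h7]
        exact hn
    · -- `O_p(M) = 1`
      rw [eq_bot_iff]
      intro z hz
      have hn : ((pCore p ↥M).map (Subgroup.inclusion hMK)).Normal := by
        constructor
        rintro _ ⟨n, hn, rfl⟩ g
        have hMnorm : (M.subgroupOf K).Normal := by
          constructor
          intro m hm g
          exact Subgroup.mem_subgroupOf.2 (hMn g g.2 m (Subgroup.mem_subgroupOf.1 hm))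
        have hchar : (pCore p ↥M).Characteristic := pCore_characteristic p
        let φ : MulAut M :=
          { toFun := fun m => ⟨(g : G) * m * (g : G)⁻¹, hMn g g.2 m m.2⟩
            invFun := fun m => ⟨(g : G)⁻¹ * m * (g : G), by
              have := hMn (g : G)⁻¹ (K.inv_mem g.2) m m.2
              rwa [inv_inv] at this⟩
            left_inv := fun m => Subtype.ext (by simp only; group)
            right_inv := fun m => Subtype.ext (by simp only; group)
            map_mul' := fun a b => Subtype.ext (by simp only [Subgroup.coe_mul]; group) }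
        have h1 : φ n ∈ pCore p ↥M := by
          have h2 := Subgroup.characteristic_iff_map_eq.1 hchar φ
          rw [← h2]
          exact ⟨n, hn, rfl⟩
        exact ⟨φ n, h1, Subtype.ext rfl⟩
      have hpg : IsPGroup p ((pCore p ↥M).map (Subgroup.inclusion hMK)) := (pCore_isPGroup p).map _
      have h1 := le_pCore hn hpg
      rw [h.core] at h1
      have h2 : Subgroup.inclusion hMK z = 1 := Subgroup.mem_bot.1 (h1 ⟨z, hz, rfl⟩)
      rw [Subgroup.mem_bot]
      exact Subgroup.inclusion_injective hMK (by rw [h2, map_one])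
  -- generation
  have hgen : sSup R = ⊤ := by
    rw [eq_top_iff]
    rintro ⟨m, hm⟩ -
    have h1 : M ≤ (sSup R).map M.subtype := by
      conv_lhs => rw [hMd]
      refine MK_le fun k hk x hx => ?_
      refine ⟨⟨k * x * k⁻¹, hcM k hk (conj_mem_cj' hx)⟩, ?_, rfl⟩
      exact Subgroup.mem_sSup_of_mem (show (cj k X).subgroupOf M ∈ R from ⟨k, hk, rfl⟩)
        (Subgroup.mem_subgroupOf.2 (conj_mem_cj' hx))
    obtain ⟨n, hn, hnm⟩ := h1 hm
    have h2 : n = ⟨m, hm⟩ := Subtype.ext hnm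
    rwa [← h2]
  obtain ⟨hperf, hq⟩ := hR.quasi hgen hXR
  -- `M1`
  have hM1 : Mc (X.subgroupOf M) = ⊤ := by
    have hXY : Mc (X.subgroupOf M) = Mc (Y.subgroupOf M) := by
      rcases hR.eq_or_comm hXR hYR with h1 | h1
      · exact h1
      · exfalso
        apply h.npg
        have h2 : ∀ x ∈ X, ∀ y ∈ Y, x * y = y * x := by
          intro x hx y hy
          have h3 : (⟨x, hXM hx⟩ : M) ∈ Mc (X.subgroupOf M) := le_Mc _ (Subgroup.mem_subgroupOf.2 hx)
          have h4 : (⟨y, hYM hy⟩ : M) ∈ Mc (Y.subgroupOf M) := le_Mc _ (Subgroup.mem_subgroupOf.2 hy)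
          have h5 := Subgroup.mem_centralizer_iff.1 (h1 h3) _ h4
          exact (congrArg Subtype.val h5).symm
        have hYp : IsPGroup p Y := hY ▸ isPGroup_cj h.pgrp
        refine IsPGroup.to_sup_of_normal_right' (H := X) (K := Y) h.pgrp hYp fun x hx => ?_
        rw [Subgroup.mem_normalizer_iff]
        intro y
        constructor
        · intro hy
          rw [h2 x hx y hy, mul_inv_cancel_right]
          exact hy
        · intro hy
          have h3 := h2 x⁻¹ (X.inv_mem hx) _ hy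
          have h4 : y = x⁻¹ * (x * y * x⁻¹) * x := by group
          rw [h4, h3]
          simpa using hy
    -- the image is normalised by `K`
    have key : ∀ (Z : Subgroup G) (g : G), g ∈ K → (∀ z ∈ Z, g * z * g⁻¹ ∈ Z) →
        ∀ m ∈ (Mc (Z.subgroupOf M)).map M.subtype, g * m * g⁻¹ ∈ (Mc (Z.subgroupOf M)).map M.subtype := by
      intro Z g hg hZ
      have h1 : Mc (Z.subgroupOf M) ≤ ((Mc (Z.subgroupOf M)).map M.subtype).comap
          ((MulAut.conj g).toMonoidHom.comp M.subtype) := by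
        unfold Mc
        rw [Subgroup.normalClosure]
        refine (Subgroup.closure_le _).2 ?_
        intro y hy
        obtain ⟨z, hz, hzy⟩ := Group.mem_conjugatesOfSet_iff.1 hy
        obtain ⟨c, rfl⟩ := isConj_iff.1 hzy
        refine ⟨⟨g * (c * z * c⁻¹ : M) * g⁻¹, hMn g hg _ (c * z * c⁻¹ : M).2⟩, ?_, rfl⟩
        have h2 : (⟨g * (c * z * c⁻¹ : M) * g⁻¹, hMn g hg _ (c * z * c⁻¹ : M).2⟩ : M) =
            ⟨g * c * g⁻¹, hMn g hg _ c.2⟩ * ⟨g * z * g⁻¹, hMn g hg _ z.2⟩ * (⟨g * c * g⁻¹, hMn g hg _ c.2⟩ : M)⁻¹ :=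
          Subtype.ext (by
            change g * (c * z * (c : G)⁻¹) * g⁻¹ = g * c * g⁻¹ * (g * z * g⁻¹) * (g * c * g⁻¹)⁻¹
            group)
        rw [h2]
        refine Subgroup.normalClosure_normal.conj_mem _ ?_ _
        exact Subgroup.subset_normalClosure (Subgroup.mem_subgroupOf.2 (hZ _ (Subgroup.mem_subgroupOf.1 hz)))
      rintro _ ⟨m, hm, rfl⟩
      exact h1 hm
    have hnorm : ∀ g ∈ K, ∀ m ∈ (Mc (X.subgroupOf M)).map M.subtype, g * m * g⁻¹ ∈ (Mc (X.subgroupOf M)).map M.subtype := by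
      intro g hg
      have h1 : (P ⊔ Q ⊔ T : Subgroup G) ≤ Subgroup.normalizer ((Mc (X.subgroupOf M)).map M.subtype : Set G) := by
        have h2 : ∀ (Z A : Subgroup G), A ≤ K → Mc (X.subgroupOf M) = Mc (Z.subgroupOf M) →
            (∀ g ∈ A, ∀ z ∈ Z, g * z * g⁻¹ ∈ Z) →
            A ≤ Subgroup.normalizer ((Mc (X.subgroupOf M)).map M.subtype : Set G) := by
          intro Z A hA he hZ a ha
          rw [he, Subgroup.mem_normalizer_iff]
          intro m
          constructor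
          · exact key Z a (hA ha) (hZ a ha) m
          · intro hm
            have h3 := key Z a⁻¹ (K.inv_mem (hA ha)) (hZ a⁻¹ (A.inv_mem ha)) _ hm
            have h4 : a⁻¹ * (a * m * a⁻¹) * a⁻¹⁻¹ = m := by group
            rwa [h4] at h3
        exact sup_le (sup_le (h2 X P h.leP rfl h.hP) (h2 Y Q h.leQ hXY h.hQ)) (h2 X T h.leT rfl h.hT)
      intro m hm
      exact (Subgroup.mem_normalizer_iff.1 (h1 (h.gen hg)) m).1 hm
    rw [eq_top_iff]
    rintro ⟨m, hm⟩ -
    have h1 : M ≤ (Mc (X.subgroupOf M)).map M.subtype := by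
      conv_lhs => rw [hMd]
      refine MK_le fun k hk x hx => ?_
      exact hnorm k hk x ⟨⟨x, hXM hx⟩, le_Mc _ (Subgroup.mem_subgroupOf.2 hx), rfl⟩
    obtain ⟨n, hn, hnm⟩ := h1 hm
    have h2 : n = ⟨m, hm⟩ := Subtype.ext hnm
    rwa [← h2]
  rw [hM1] at hperf hq
  rw [← hMd]
  refine ⟨?_, fun N hN hMN => ?_⟩
  · have h1 : (⁅(⊤ : Subgroup M), (⊤ : Subgroup M)⁆ : Subgroup M).map M.subtype = ⁅M, M⁆ := by
      rw [Subgroup.map_commutator, ← MonoidHom.range_eq_map, Subgroup.range_subtype]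
    rw [← h1, hperf, ← MonoidHom.range_eq_map, Subgroup.range_subtype]
  · rcases hq (N.subgroupOf M) le_top (by
        intro m _ n hn
        exact Subgroup.mem_subgroupOf.2 (hMN m m.2 n (Subgroup.mem_subgroupOf.1 hn))) with h1 | h1
    · left
      exact le_antisymm hN (Subgroup.subgroupOf_eq_top.1 h1)
    · right
      intro m hm n hn
      exact congrArg Subtype.val (h1 ⟨m, hm⟩ trivial ⟨n, hN hn⟩ (Subgroup.mem_subgroupOf.2 hn))

/-- the component: all properties -/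
theorem Base.all [Finite K] (h : Base p K X Y P Q T) (hc : Cond K X Y) :
    X ≤ MK K X ∧ Y ≤ MK K X ∧ MK K X ≤ K ∧ K ≤ Subgroup.normalizer (MK K X : Set G) ∧ ⁅MK K X, MK K X⁆ = MK K X ∧
      IsSimpleGroup (MK K X ⧸ Subgroup.center (MK K X)) ∧ ¬ IsMulCommutative (MK K X ⧸ Subgroup.center (MK K X)) := by
  obtain ⟨h1, h2⟩ := h.main hc
  obtain ⟨k, hk, hY⟩ := h.conjY
  have hne : MK K X ≠ ⊥ := fun hb => h.ne (le_bot_iff.1 ((le_MK K X).trans hb.le))
  obtain ⟨h3, h4⟩ := simple_of hne h1 h2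
  exact ⟨le_MK K X, hY ▸ cj_le_MK hk, MK_le_self h.leX, le_normalizer_MK K X, h1, h3, h4⟩

/-- `⟨X, Y⟩` perfect -/
theorem cond_of_perfect [Finite K] (hXK : X ≤ K) (hYK : Y ≤ MK K X) (hX : IsPGroup p X)
    (hD : ⁅X ⊔ Y, X ⊔ Y⁆ = X ⊔ Y) : Cond K X Y := by
  intro N hN hMN hY
  obtain ⟨M, hMd⟩ : ∃ M, M = MK K X := ⟨_, rfl⟩
  rw [← hMd] at hN hMN hYK
  have hMK : M ≤ K := hMd ▸ MK_le_self hXK
  have hfin : Finite M := Finite.of_injective _ (Subgroup.inclusion_injective hMK)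
  have hXM : X ≤ M := hMd ▸ le_MK K X
  have h1 : (N.subgroupOf M).Normal := by
    constructor
    intro n hn m
    exact Subgroup.mem_subgroupOf.2 (hMN m m.2 n (Subgroup.mem_subgroupOf.1 hn))
  have hmap : (X.subgroupOf M ⊔ Y.subgroupOf M).map M.subtype = X ⊔ Y := by
    rw [Subgroup.map_sup, Subgroup.map_subgroupOf_eq_of_le hXM, Subgroup.map_subgroupOf_eq_of_le hYK]
  have h2 : ⁅X.subgroupOf M ⊔ Y.subgroupOf M, X.subgroupOf M ⊔ Y.subgroupOf M⁆ = X.subgroupOf M ⊔ Y.subgroupOf M := by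
    apply Subgroup.map_injective M.subtype_injective
    rw [Subgroup.map_commutator, hmap, hD]
  have h3 := pair_of_perfect (p := p) (hX.comap_subtype (K := M)) h2 h1 (by
    intro y hy
    obtain ⟨x, hx, n, hn, hxn⟩ := hY y (Subgroup.mem_subgroupOf.1 hy)
    have h4 : y = (⟨x, hXM hx⟩ : M) * ⟨n, hN hn⟩ := Subtype.ext hxn
    rw [h4]
    exact Subgroup.mul_mem _ (Subgroup.mem_sup_left (Subgroup.mem_subgroupOf.2 hx))
      (Subgroup.mem_sup_right (Subgroup.mem_subgroupOf.2 hn)))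
  intro x hx
  exact Subgroup.mem_subgroupOf.1 (h3 (show (⟨x, hXM hx⟩ : M) ∈ X.subgroupOf M from Subgroup.mem_subgroupOf.2 hx))

/-- `|X| = p`, `ρ ∈ ⟨X, Y⟩` of order prime to `p` -/
theorem cond_of_prime (hX : Nat.card X = p) {ρ : G} (hρ : ρ ∈ X ⊔ Y) {m : ℕ} (hm : m.Coprime p) (hρm : ρ ^ m = 1)
    (hmeet : ∀ N : Subgroup G, N ≤ MK K X → (∀ m ∈ MK K X, ∀ n ∈ N, m * n * m⁻¹ ∈ N) → ρ ∈ N →
      ∃ k ∈ MK K X, ∃ ξ ∈ X, ξ ≠ 1 ∧ k * ξ * k⁻¹ ∈ N) : Cond K X Y := by
  intro N hN hMN hY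
  have hXM : X ≤ MK K X := le_MK K X
  -- `⟨X, Y⟩ ≤ X N`
  let XN : Subgroup G :=
    { carrier := {z | ∃ x ∈ X, ∃ n ∈ N, z = x * n}
      one_mem' := ⟨1, X.one_mem, 1, N.one_mem, by simp⟩
      mul_mem' := by
        rintro _ _ ⟨x, hx, n, hn, rfl⟩ ⟨x', hx', n', hn', rfl⟩
        refine ⟨x * x', X.mul_mem hx hx', (x'⁻¹ * n * x') * n', N.mul_mem ?_ hn', by group⟩
        have := hMN x'⁻¹ (hXM (X.inv_mem hx')) n hn
        rwa [inv_inv] at this
      inv_mem' := by
        rintro _ ⟨x, hx, n, hn, rfl⟩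
        refine ⟨x⁻¹, X.inv_mem hx, x * n⁻¹ * x⁻¹, hMN x (hXM hx) _ (N.inv_mem hn), by group⟩ }
  have h1 : X ⊔ Y ≤ XN := sup_le (fun x hx => ⟨x, hx, 1, N.one_mem, by simp⟩) hY
  obtain ⟨x, hx, n, hn, hρe⟩ := h1 hρ
  have hpow : ∀ j : ℕ, ∃ n' ∈ N, ρ ^ j = x ^ j * n' := by
    intro j
    induction j with
    | zero => exact ⟨1, N.one_mem, by simp⟩
    | succ j ih =>
      obtain ⟨n', hn', e⟩ := ih
      refine ⟨(x⁻¹ * n' * x) * n, N.mul_mem ?_ hn, ?_⟩
      · have := hMN x⁻¹ (hXM (X.inv_mem hx)) n' hn'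
        rwa [inv_inv] at this
      · rw [pow_succ, e, hρe, pow_succ]
        group
  have hxN : x ∈ N := by
    obtain ⟨n', hn', e⟩ := hpow m
    rw [hρm] at e
    have h2 : x ^ m ∈ N := by
      have h3 : x ^ m = n'⁻¹ := eq_inv_of_mul_eq_one_left e.symm
      rw [h3]
      exact N.inv_mem hn'
    have h4 : x ^ p = 1 := by
      have h5 : (⟨x, hx⟩ : X) ^ Nat.card X = 1 := pow_card_eq_one'
      rw [hX] at h5
      exact congrArg Subtype.val h5
    obtain ⟨a, -, ha⟩ := Nat.exists_mul_mod_eq_one_of_coprime hm (Nat.Prime.one_lt Fact.out)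
    have h5 : x = (x ^ m) ^ a := by
      rw [← pow_mul]
      conv_rhs => rw [← Nat.mod_add_div (m * a) p, ha, pow_add, pow_mul, h4, one_pow, mul_one, pow_one]
    rw [h5]
    exact N.pow_mem h2 a
  have hρN : ρ ∈ N := by
    rw [hρe]
    exact N.mul_mem hxN hn
  obtain ⟨k, hk, ξ, hξ, hξ1, hkξ⟩ := hmeet N hN hMN hρN
  have hξN : ξ ∈ N := by
    have h2 := hMN k⁻¹ ((MK K X).inv_mem hk) _ hkξ
    have h3 : k⁻¹ * (k * ξ * k⁻¹) * k⁻¹⁻¹ = ξ := by group
    rwa [h3] at h2
  -- `X` has prime order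
  have hord : orderOf ξ = p := by
    have h2 : orderOf ξ ∣ p := by
      rw [← hX]
      exact X.orderOf_dvd_natCard hξ
    rcases (Nat.dvd_prime Fact.out).1 h2 with h3 | h3
    · exact absurd (orderOf_eq_one_iff.1 h3) hξ1
    · exact h3
  have hfinX : Finite X := Nat.finite_of_card_ne_zero (by rw [hX]; exact (Nat.Prime.pos Fact.out).ne')
  have hz : Subgroup.zpowers ξ = X := by
    apply Subgroup.eq_of_le_of_card_ge ((Subgroup.zpowers_le).2 hξ)
    rw [hX, Nat.card_zpowers, hord]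
  rw [← hz]
  exact (Subgroup.zpowers_le).2 hξN

end main

end Cfsg.Agent.H398.RG
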