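import Cfsg.Agent.H398.RG.Orb
import Cfsg.Agent.Nodes.KindBase

/-!
# S3509: orbits of a graph automorphism on the neighbours of a fixed long root, two root lengths (helper398)

`S` a closed symmetric set of roots, `θ` an isometry preserving the roots, `S` and the positive roots of `S`; `β ∈ S` a long
root fixed by `θ`.

* `Lr` : long root; `Lr.act`, `Lr.sub`;
* `fix_short` : `a ∈ S` with `⟨a, β^∨⟩ = 1`, `⟨β, a^∨⟩ = 2` is fixed by `θ`;
* `stab_long` : `StabS` for the long roots of `S`, on which `⟨x, y^∨⟩` is symmetric.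
-/

set_option autoImplicit false
set_option linter.unusedSectionVars false

namespace Cfsg.Agent.H398.RG

open CoxeterSystem Cfsg.Agent.ChevalleyStructure.CoxeterGeom Cfsg.Agent.Tits.Roots Cfsg.Agent.Tits.Core
  Cfsg.Agent.Nodes.Reps Cfsg.Agent.Nodes.Coroot Cfsg.Agent.KFacts.RgdSL Cfsg.Agent.Nodes.PosPair

variable {I W : Type*} [Fintype I] [DecidableEq I] [Group W] [Finite W] {M : CoxeterMatrix I}
  {cs : CoxeterSystem M W} {A : I → I → ℤ} {h : IsCartan M A}

/-- long root -/
def Lr (cs : CoxeterSystem M W) (h : IsCartan M A) (a : I → ℤ) : Prop :=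
  IsRoot cs h a ∧ ∀ b, IsRoot cs h b → b ≠ a → b ≠ -a → |cpr cs h b a| ≤ 1

theorem Lr.neg {a : I → ℤ} (ha : Lr cs h a) : Lr cs h (-a) := by
  refine ⟨ha.1.neg, fun b hb h1 h2 => ?_⟩
  rw [cpr_neg_right cs h b ha.1, abs_neg]
  exact ha.2 b hb (by rwa [neg_neg] at h2) h1

theorem Lr.act {a : I → ℤ} (ha : Lr cs h a) (w : W) : Lr cs h (rep cs h w a) := by
  refine ⟨ha.1.act w, fun b hb h1 h2 => ?_⟩
  have h3 : cpr cs h b (rep cs h w a) = cpr cs h (rep cs h w⁻¹ b) a := by
    conv_lhs => rw [← rep_apply_inv cs h w b]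
    exact cpr_rep cs h w _ ha.1
  rw [h3]
  refine ha.2 _ (hb.act _) ?_ ?_
  · rintro rfl
    exact h1 (rep_apply_inv cs h w b).symm
  · intro h4
    apply h2
    rw [← map_neg, ← h4, rep_apply_inv]

/-- the product of two long roots is symmetric -/
theorem Lr.symm {a b : I → ℤ} (ha : Lr cs h a) (hb : Lr cs h b) : cpr cs h a b = cpr cs h b a := by
  by_cases h1 : a = b
  · rw [h1]
  by_cases h2 : a = -b
  · rw [h2, cpr_neg_left _ hb.1, cpr_neg_right cs h b hb.1]
  have h3 := hb.2 a ha.1 h1 h2
  have h4 := ha.2 b hb.1 (fun h => h1 h.symm) (fun h => h2 (by rw [h, neg_neg]))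
  have := Fintype.ofFinite W
  have e1 := two_form_cpr cs h a hb.1
  have e2 := two_form_cpr cs h b ha.1
  have e3 := form_comm cs h a b
  have p1 := form_pos cs h ha.1.ne_zero
  have p2 := form_pos cs h hb.1.ne_zero
  rw [abs_le] at h3 h4
  have h5 : cpr cs h a b * form cs h b b = cpr cs h b a * form cs h a a := by linarith
  have h6 : cpr cs h a b = -1 ∨ cpr cs h a b = 0 ∨ cpr cs h a b = 1 := by omega
  have h7 : cpr cs h b a = -1 ∨ cpr cs h b a = 0 ∨ cpr cs h b a = 1 := by omega
  rcases h6 with h6 | h6 | h6 <;> rcases h7 with h7 | h7 | h7 <;> rw [h6, h7] at h5 ⊢ <;> exfalso <;> linarith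

/-- a difference of long roots is long -/
theorem Lr.sub {a b : I → ℤ} (ha : Lr cs h a) (hb : Lr cs h b) (hr : IsRoot cs h (a - b)) : Lr cs h (a - b) := by
  have hab : a ≠ b := by
    rintro rfl
    exact hr.ne_zero (sub_self a)
  have hab' : a ≠ -b := by
    rintro rfl
    have h2 : -b - b = (-2 : ℤ) • b := by module
    have := isUnit_of_smul cs h hr (-2) h2
    rw [Int.isUnit_iff] at this
    omega
  have h1 : cpr cs h (a - b) b = cpr cs h a b - 2 := by
    rw [sub_eq_add_neg, cpr_add cs h _ _ hb.1, cpr_neg_left _ hb.1, cpr_self cs h hb.1]; ring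
  have h2 := hb.2 _ hr (fun he => by
      have h3 : a = (2 : ℤ) • b := by
        have : a = (a - b) + b := by abel
        rw [this, he]; module
      have := isUnit_of_smul cs h ha.1 2 h3
      rw [Int.isUnit_iff] at this
      omega) (fun he => ha.1.ne_zero (by
      have : a = (a - b) + b := by abel
      rw [this, he]; abel))
  have h3 := hb.2 a ha.1 hab hab'
  rw [h1] at h2
  rw [abs_le] at h2 h3
  have h4 : cpr cs h a b = 1 := by omega
  obtain ⟨s, hs⟩ := Cfsg.Agent.Nodes.KindBase.exists_refl cs h hb.1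
  have h5 : rep cs h s a = a - b := by rw [hs, h4, one_smul]
  rw [← h5]
  exact ha.act s

variable {S : Set (I → ℤ)} {θ : (I → ℤ) ≃+ (I → ℤ)}

/-- the image of a long root is long -/
theorem Lr.theta (hroot : ∀ a, IsRoot cs h (θ a) ↔ IsRoot cs h a)
    (hiso : ∀ a b, IsRoot cs h a → IsRoot cs h b → cpr cs h (θ a) (θ b) = cpr cs h a b) {a : I → ℤ} (ha : Lr cs h a) :
    Lr cs h (θ a) := by
  refine ⟨(hroot a).2 ha.1, fun b hb h1 h2 => ?_⟩
  have hb' : IsRoot cs h (θ.symm b) := by
    rw [← hroot, AddEquiv.apply_symm_apply]; exact hb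
  have h3 := hiso _ _ hb' ha.1
  rw [AddEquiv.apply_symm_apply] at h3
  rw [h3]
  refine ha.2 _ hb' ?_ ?_
  · rintro rfl
    exact h1 (AddEquiv.apply_symm_apply θ b).symm
  · intro h4
    apply h2
    rw [← map_neg, ← h4, AddEquiv.apply_symm_apply]

/-- `StabS` for the long roots of `S` -/
theorem stab_long (H : StabS cs h S θ)
    (hiso : ∀ a b, IsRoot cs h a → IsRoot cs h b → cpr cs h (θ a) (θ b) = cpr cs h a b) :
    StabS cs h {a | a ∈ S ∧ Lr cs h a} θ where
  rts a ha := ha.2.1
  neg _ ha := ⟨H.neg _ ha.1, ha.2.neg⟩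
  sub _ ha _ hb hr := ⟨H.sub _ ha.1 _ hb.1 hr, ha.2.sub hb.2 hr⟩
  root := H.root
  mem _ ha := ⟨H.mem _ ha.1, ha.2.theta H.root hiso⟩
  pos _ ha h0 := H.pos _ ha.1 h0

/-- a short neighbour of a fixed long root is fixed -/
theorem fix_short (H : StabS cs h S θ)
    (hiso : ∀ a b, IsRoot cs h a → IsRoot cs h b → cpr cs h (θ a) (θ b) = cpr cs h a b) {β a : I → ℤ} (hβ : β ∈ S)
    (hθ : θ β = β) (ha : a ∈ S) (h1 : cpr cs h a β = 1) (h2 : cpr cs h β a = 2) : θ a = a := by
  by_contra hne
  have := Fintype.ofFinite W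
  have hβ' := H.rts _ hβ
  have ha' := H.rts _ ha
  have hb := H.mem _ ha
  have hb' := H.rts _ hb
  have k1 : cpr cs h (θ a) β = 1 := by
    have := hiso a β ha' hβ'
    rw [hθ] at this
    rw [this, h1]
  have k2 : cpr cs h β (θ a) = 2 := by
    have := hiso β a hβ' ha'
    rw [hθ] at this
    rw [this, h2]
  have p1 := form_pos cs h ha'.ne_zero
  have p2 := form_pos cs h hb'.ne_zero
  have p3 := form_pos cs h hβ'.ne_zero
  have e1 := two_form_cpr cs h a hβ'
  have e2 := two_form_cpr cs h β ha'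
  have e3 := form_comm cs h a β
  have e4 := two_form_cpr cs h (θ a) hβ'
  have e5 := two_form_cpr cs h β hb'
  have e6 := form_comm cs h (θ a) β
  rw [h1] at e1
  rw [h2] at e2
  rw [k1] at e4
  rw [k2] at e5
  -- same length
  have hlen : form cs h a a = form cs h (θ a) (θ a) := by linarith
  have hsym : cpr cs h a (θ a) = cpr cs h (θ a) a := by
    have e7 := two_form_cpr cs h a hb'
    have e8 := two_form_cpr cs h (θ a) ha'
    have e9 := form_comm cs h a (θ a)
    rw [hlen] at e8
    have e10 : cpr cs h a (θ a) * form cs h (θ a) (θ a) = cpr cs h (θ a) a * form cs h (θ a) (θ a) := by linarith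
    exact mul_right_cancel₀ p2.ne' e10
  rcases StabS.cases_of ha' hb' hsym with h3 | h3 | ⟨h3, h3', h4, h5⟩
  · exact hne h3.1.symm
  · rw [h3.1, cpr_neg_left _ hβ', k1] at h1
    omega
  have h6 : cpr cs h a (θ a) = 1 ∨ cpr cs h a (θ a) = 0 ∨ cpr cs h a (θ a) = -1 := by omega
  rcases h6 with h6 | h6 | h6
  · exact H.no_diff ha' (H.sub _ ha _ hb (isRoot_sub ha' hb' h6))
  · -- `β - a` and `θ a` have product 2
    have g1 : IsRoot cs h (β - a) := by
      have := (isRoot_sub ha' hβ' h1).neg
      rwa [neg_sub] at this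
    have g2 : cpr cs h (β - a) (θ a) = 2 := by
      rw [sub_eq_add_neg, cpr_add cs h _ _ hb', cpr_neg_left _ hb', k2, h6]
      norm_num
    have g3 : form cs h (β - a) (β - a) = form cs h (θ a) (θ a) := by
      rw [form_sub_right, form_comm cs h (β - a) β, form_comm cs h (β - a) a, form_sub_right, form_sub_right]
      linarith
    have g4 : cpr cs h (θ a) (β - a) = 2 := by
      have e7 := two_form_cpr cs h (θ a) g1
      have e8 := two_form_cpr cs h (β - a) hb'
      have e9 := form_comm cs h (θ a) (β - a)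
      rw [g2] at e8
      rw [g3] at e7
      have e10 : 2 * form cs h (θ a) (θ a) = cpr cs h (θ a) (β - a) * form cs h (θ a) (θ a) := by linarith
      exact (mul_right_cancel₀ p2.ne' e10).symm
    have g5 : β - a = θ a := by
      rcases StabS.cases_of g1 hb' (g2.trans g4.symm) with h7 | h7 | h7
      · exact h7.1
      · omega
      · omega
    -- `a - θ a = 2 a - β`
    have g6 : IsRoot cs h (a - θ a) := by
      have h7 := (isRoot_refl cs h hβ' ha').neg
      rw [h2] at h7
      have h8 : a - θ a = -(β - (2 : ℤ) • a) := by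
        rw [← g5]; module
      rwa [h8]
    exact H.no_diff ha' (H.sub _ ha _ hb g6)
  · -- `a + θ a` is a root with product 2 with `β`
    have g1 := isRoot_add ha' hb' h6
    have g2 : cpr cs h (a + θ a) β = 2 := by
      rw [cpr_add cs h _ _ hβ', h1, k1]
      norm_num
    have g3 : form cs h (a + θ a) (a + θ a) = form cs h a a := by
      have e7 := two_form_cpr cs h a hb'
      rw [h6] at e7
      rw [form_add_left, form_comm cs h a (a + θ a), form_comm cs h (θ a) (a + θ a), form_add_left, form_add_left,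
        form_comm cs h (θ a) a]
      linarith
    have e7 := two_form_cpr cs h (a + θ a) hβ'
    have e8 := two_form_cpr cs h β g1
    have e9 := form_comm cs h (a + θ a) β
    rw [g2] at e7
    rw [g3] at e8
    have g4 : cpr cs h β (a + θ a) = 4 := by
      have e10 : cpr cs h β (a + θ a) * form cs h a a = 4 * form cs h a a := by linarith
      exact mul_right_cancel₀ p1.ne' e10
    by_cases g5 : a + θ a = β
    · rw [g5, cpr_self cs h hβ'] at g4
      omega
    by_cases g6 : a + θ a = -β
    · rw [g6, cpr_neg_left _ hβ', cpr_self cs h hβ'] at g2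
      omega
    have g7 := cpr_mul_lt g1 hβ' g5 g6
    rw [g2, g4] at g7
    omega

end Cfsg.Agent.H398.RG
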