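import Cfsg.Agent.Involutions.BaerSuzuki
import Cfsg.Agent.Lib.Cores

/-!
# S3509: the component lemma (helper398)

`L` a finite group with `O_p(L) = 1`, `R` an `L`-invariant set of nontrivial `p`-subgroups, such that two members `X`, `Y`
generate a `p`-group or satisfy: `X ≤ N` for every normal subgroup `N` of `L` with `Y ≤ X N` (e.g. `⟨X, Y⟩` perfect).

* `Rts.le_or_comm` : `X ≤ N` or `[X, N] = 1`, for every normal subgroup `N` and `X ∈ R`;
* `Rts.quasi` : `M = ⟨X ^ L⟩` is perfect, a normal subgroup of `M` is `M` or central, `L = M C_L(M)` if `R` generates `L`;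
* `Rts.simple` : `M / Z(M)` is simple and not commutative.
-/

set_option autoImplicit false
set_option linter.unusedSectionVars false

namespace Cfsg.Agent.H398.RG

open Cfsg Cfsg.Agent.Lib.Cores

variable {L : Type*} [Group L]

/-- the conjugate `g X g⁻¹` -/
def cj (g : L) (X : Subgroup L) : Subgroup L := X.map (MulAut.conj g).toMonoidHom

theorem mem_cj {g : L} {X : Subgroup L} {y : L} : y ∈ cj g X ↔ g⁻¹ * y * g ∈ X := by
  constructor
  · rintro ⟨x, hx, rfl⟩
    have h1 : g⁻¹ * ((MulAut.conj g).toMonoidHom x) * g = x := by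
      change g⁻¹ * (g * x * g⁻¹) * g = x
      group
    rw [h1]
    exact hx
  · intro h
    refine ⟨_, h, ?_⟩
    change g * (g⁻¹ * y * g) * g⁻¹ = y
    group

theorem cj_mul (g k : L) (X : Subgroup L) : cj (g * k) X = cj g (cj k X) := by
  ext y
  rw [mem_cj, mem_cj, mem_cj]
  have h1 : (g * k)⁻¹ * y * (g * k) = k⁻¹ * (g⁻¹ * y * g) * k := by group
  rw [h1]

theorem cj_of_mem {x : L} {X : Subgroup L} (hx : x ∈ X) : cj x X = X := by
  ext y
  rw [mem_cj]
  constructor
  · intro h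
    have h1 : y = x * (x⁻¹ * y * x) * x⁻¹ := by group
    rw [h1]
    exact X.mul_mem (X.mul_mem hx h) (X.inv_mem hx)
  · intro h
    exact X.mul_mem (X.mul_mem (X.inv_mem hx) h) hx

/-- a class of root subgroups -/
structure Rts (p : ℕ) (R : Set (Subgroup L)) : Prop where
  conj : ∀ X ∈ R, ∀ g : L, cj g X ∈ R
  pgrp : ∀ X ∈ R, IsPGroup p X
  ne : ∀ X ∈ R, X ≠ ⊥
  pair : ∀ X ∈ R, ∀ Y ∈ R, IsPGroup p (X ⊔ Y : Subgroup L) ∨ ∀ N : Subgroup L, N.Normal → Y ≤ X ⊔ N → X ≤ N
  core : pCore p L = ⊥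

/-- a perfect group `⟨X, Y⟩` is as required -/
theorem pair_of_perfect {p : ℕ} [Fact p.Prime] [Finite L] {X Y : Subgroup L} (hX : IsPGroup p X)
    (hD : ⁅X ⊔ Y, X ⊔ Y⁆ = X ⊔ Y) {N : Subgroup L} (hN : N.Normal) (hY : Y ≤ X ⊔ N) : X ≤ N := by
  have h1 : (X ⊔ Y).map (QuotientGroup.mk' N) = X.map (QuotientGroup.mk' N) := by
    apply le_antisymm
    · rintro _ ⟨d, hd, rfl⟩
      have hd' : d ∈ X ⊔ N := (sup_le le_sup_left hY : X ⊔ Y ≤ X ⊔ N) hd
      obtain ⟨x, hx, m, hm, rfl⟩ := Subgroup.mem_sup_of_normal_right.1 hd'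
      refine ⟨x, hx, ?_⟩
      rw [map_mul, show QuotientGroup.mk' N m = 1 from (QuotientGroup.eq_one_iff m).2 hm, mul_one]
    · exact Subgroup.map_mono le_sup_left
  have h2 : IsPGroup p ((X ⊔ Y).map (QuotientGroup.mk' N)) := by
    rw [h1]
    exact hX.map _
  have h3 : ⁅(X ⊔ Y).map (QuotientGroup.mk' N), (X ⊔ Y).map (QuotientGroup.mk' N)⁆ =
      (X ⊔ Y).map (QuotientGroup.mk' N) := by
    rw [← Subgroup.map_commutator, hD]
  have h4 : (X ⊔ Y).map (QuotientGroup.mk' N) = ⊥ := by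
    by_contra hne
    have hnt : Nontrivial ↥((X ⊔ Y).map (QuotientGroup.mk' N)) := (Subgroup.nontrivial_iff_ne_bot _).2 hne
    have hsol : Group.IsSolvable ↥((X ⊔ Y).map (QuotientGroup.mk' N)) := by
      have := h2.isNilpotent
      infer_instance
    have h5 := Group.IsSolvable.commutator_lt_top_of_nontrivial ↥((X ⊔ Y).map (QuotientGroup.mk' N))
    apply h5.ne
    rw [eq_top_iff]
    rintro ⟨d, hd⟩ -
    have h6 : d ∈ ⁅(X ⊔ Y).map (QuotientGroup.mk' N), (X ⊔ Y).map (QuotientGroup.mk' N)⁆ := by rw [h3]; exact hd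
    have h7 : (commutator ↥((X ⊔ Y).map (QuotientGroup.mk' N))).map (Subgroup.subtype _) =
        ⁅(X ⊔ Y).map (QuotientGroup.mk' N), (X ⊔ Y).map (QuotientGroup.mk' N)⁆ := by
      rw [commutator_def, Subgroup.map_commutator, ← MonoidHom.range_eq_map, Subgroup.range_subtype]
    rw [← h7] at h6
    obtain ⟨e, he, hed⟩ := h6
    have h8 : e = ⟨d, hd⟩ := Subtype.ext hed
    rwa [← h8]
  intro x hx
  have h5 : QuotientGroup.mk' N x ∈ (X ⊔ Y).map (QuotientGroup.mk' N) := ⟨x, (le_sup_left : X ≤ X ⊔ Y) hx, rfl⟩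
  rw [h4, Subgroup.mem_bot] at h5
  exact (QuotientGroup.eq_one_iff x).1 h5

section main

variable [Finite L] {p : ℕ} [Fact p.Prime] {R : Set (Subgroup L)}

theorem Rts.le_or_comm (h : Rts p R) {N : Subgroup L} (hN : N.Normal) {X : Subgroup L} (hX : X ∈ R) :
    X ≤ N ∨ ∀ x ∈ X, ∀ n ∈ N, x * n = n * x := by
  by_cases hc : ∃ n ∈ N, ¬ IsPGroup p (X ⊔ cj n X : Subgroup L)
  · obtain ⟨n, hn, hc⟩ := hc
    left
    rcases h.pair X hX (cj n X) (h.conj X hX n) with h1 | h1
    · exact absurd h1 hc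
    · apply h1 N hN
      rintro _ ⟨x, hx, rfl⟩
      change n * x * n⁻¹ ∈ X ⊔ N
      have h2 : n * x * n⁻¹ = x * ((x⁻¹ * n * x) * n⁻¹) := by group
      rw [h2]
      have h3 : x⁻¹ * n * x ∈ N := by
        have := hN.conj_mem n hn x⁻¹
        rwa [inv_inv] at this
      exact Subgroup.mul_mem _ (Subgroup.mem_sup_left hx) (Subgroup.mem_sup_right (N.mul_mem h3 (N.inv_mem hn)))
  · push Not at hc
    right
    let K : Subgroup L := X ⊔ N
    have hXK : X ≤ K := le_sup_left
    have hNK : N ≤ K := le_sup_right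
    have hBS := Cfsg.Agent.Involutions.BaerSuzuki.baer_suzuki_subgroup (p := p) (X.subgroupOf K) (by
      rintro ⟨g, hg⟩
      obtain ⟨n, hn, x, hx, rfl⟩ := Subgroup.mem_sup_of_normal_left.1 (show g ∈ N ⊔ X by rwa [sup_comm])
      have h1 : cj (n * x) X = cj n X := by rw [cj_mul, cj_of_mem hx]
      have h2 := hc n hn
      rw [← h1] at h2
      refine (h2.comap_subtype (K := K)).to_le ?_
      refine sup_le ?_ ?_
      · intro y hy
        exact Subgroup.mem_sup_left hy
      · rintro _ ⟨y, hy, rfl⟩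
        exact Subgroup.mem_sup_right ⟨(y : L), hy, rfl⟩)
    set P : Subgroup K := Subgroup.normalClosure ((X.subgroupOf K : Subgroup K) : Set K) with hP
    have hPn : P.Normal := Subgroup.normalClosure_normal
    have hXP : ∀ x (hx : x ∈ X), (⟨x, hXK hx⟩ : K) ∈ P := fun x hx => Subgroup.subset_normalClosure hx
    -- the intersection with `N`
    have hT : IsPGroup p ((P ⊓ N.subgroupOf K : Subgroup K).map K.subtype : Subgroup L) := (hBS.to_le inf_le_left).map _
    obtain ⟨T, hTd⟩ : ∃ T : Subgroup L, T = (P ⊓ N.subgroupOf K : Subgroup K).map K.subtype := ⟨_, rfl⟩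
    rw [← hTd] at hT
    have hTN : T ≤ N := by
      rw [hTd]
      rintro _ ⟨y, hy, rfl⟩
      exact hy.2
    have hTn : (T.subgroupOf N).Normal := by
      constructor
      rintro ⟨t, ht⟩ hty ⟨n, hn⟩
      rw [Subgroup.mem_subgroupOf] at hty ⊢
      change t ∈ T at hty
      change n * t * n⁻¹ ∈ T
      rw [hTd] at hty ⊢
      obtain ⟨y, hy, rfl⟩ := hty
      refine ⟨⟨n, hNK hn⟩ * y * ⟨n, hNK hn⟩⁻¹, ⟨hPn.conj_mem _ hy.1 _, ?_⟩, rfl⟩
      exact N.mul_mem (N.mul_mem hn hy.2) (N.inv_mem hn)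
    have hTp : T.subgroupOf N ≤ pCore p N := le_pCore hTn hT.comap_subtype
    have hT1 : T = ⊥ := by
      rw [eq_bot_iff]
      intro t ht
      have h1 : t ∈ (pCore p N).map N.subtype := ⟨⟨t, hTN ht⟩, hTp ht, rfl⟩
      rw [map_subtype_pCore p hN, h.core] at h1
      exact h1.2
    intro x hx n hn
    have h1 : x * n * x⁻¹ * n⁻¹ ∈ T := by
      rw [hTd]
      refine ⟨⟨x, hXK hx⟩ * (⟨n, hNK hn⟩ * ⟨x, hXK hx⟩⁻¹ * ⟨n, hNK hn⟩⁻¹), ⟨?_, ?_⟩, ?_⟩
      · exact P.mul_mem (hXP x hx) (hPn.conj_mem _ (P.inv_mem (hXP x hx)) _)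
      · change x * (n * x⁻¹ * n⁻¹) ∈ N
        have h2 : x * (n * x⁻¹ * n⁻¹) = (x * n * x⁻¹) * n⁻¹ := by group
        rw [h2]
        exact N.mul_mem (hN.conj_mem n hn x) (N.inv_mem hn)
      · change x * (n * x⁻¹ * n⁻¹) = _
        group
    rw [hT1, Subgroup.mem_bot] at h1
    calc x * n = (x * n * x⁻¹ * n⁻¹) * (n * x) := by group
      _ = n * x := by rw [h1, one_mul]

/-- the normal closure of a member -/
def Mc (X : Subgroup L) : Subgroup L := Subgroup.normalClosure (X : Set L)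

theorem le_Mc (X : Subgroup L) : X ≤ Mc X := Subgroup.le_normalClosure

theorem Mc_normal (X : Subgroup L) : (Mc X).Normal := Subgroup.normalClosure_normal

theorem Mc_le {X N : Subgroup L} (hN : N.Normal) (h : X ≤ N) : Mc X ≤ N := Subgroup.normalClosure_le_normal h

omit [Finite L] in
theorem centralizer_normal {N : Subgroup L} (hN : N.Normal) : (Subgroup.centralizer (N : Set L)).Normal := by
  constructor
  intro c hc g
  rw [Subgroup.mem_centralizer_iff] at hc ⊢
  intro n hn
  have h1 := hc (g⁻¹ * n * g) (by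
    have := hN.conj_mem n hn g⁻¹
    rwa [inv_inv] at this)
  calc n * (g * c * g⁻¹) = g * ((g⁻¹ * n * g) * c) * g⁻¹ := by group
    _ = g * (c * (g⁻¹ * n * g)) * g⁻¹ := by rw [h1]
    _ = g * c * g⁻¹ * n := by group

/-- a normal subgroup contains or centralises `⟨X ^ L⟩` -/
theorem Rts.Mc_le_or_comm (h : Rts p R) {N : Subgroup L} (hN : N.Normal) {X : Subgroup L} (hX : X ∈ R) :
    Mc X ≤ N ∨ Mc X ≤ Subgroup.centralizer (N : Set L) := by
  rcases h.le_or_comm hN hX with h1 | h1
  · exact Or.inl (Mc_le hN h1)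
  · refine Or.inr (Mc_le (centralizer_normal hN) fun x hx => ?_)
    rw [Subgroup.mem_centralizer_iff]
    intro n hn
    exact (h1 x hx n hn).symm

/-- `L = M C_L(M)` if `R` generates `L` -/
theorem Rts.sup_eq_top (h : Rts p R) (hgen : sSup R = ⊤) {X : Subgroup L} :
    Mc X ⊔ Subgroup.centralizer (Mc X : Set L) = ⊤ := by
  rw [eq_top_iff, ← hgen]
  refine sSup_le fun Y hY => ?_
  rcases h.Mc_le_or_comm (Mc_normal X) hY with h1 | h1
  · exact ((le_Mc Y).trans h1).trans le_sup_left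
  · exact ((le_Mc Y).trans h1).trans le_sup_right

/-- two components are equal or commute -/
theorem Rts.eq_or_comm (h : Rts p R) {X Y : Subgroup L} (hX : X ∈ R) (hY : Y ∈ R) :
    Mc X = Mc Y ∨ Mc X ≤ Subgroup.centralizer (Mc Y : Set L) := by
  rcases h.Mc_le_or_comm (Mc_normal Y) hX with h1 | h1
  · rcases h.Mc_le_or_comm (Mc_normal X) hY with h2 | h2
    · exact Or.inl (le_antisymm h1 h2)
    · right
      intro x hx
      rw [Subgroup.mem_centralizer_iff]
      intro y hy
      have h3 := Subgroup.mem_centralizer_iff.1 (h2 hy) x hx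
      exact h3.symm
  · exact Or.inr h1

/-- `X` is not normal -/
theorem Rts.exists_not_pgroup (h : Rts p R) {X : Subgroup L} (hX : X ∈ R) :
    ∃ g : L, ¬ IsPGroup p (X ⊔ cj g X : Subgroup L) := by
  by_contra hc
  push Not at hc
  have h1 := Cfsg.Agent.Involutions.BaerSuzuki.baer_suzuki_subgroup (p := p) X hc
  have h2 : Mc X ≤ pCore p L := le_pCore (Mc_normal X) h1
  rw [h.core] at h2
  exact h.ne X hX (le_bot_iff.1 ((le_Mc X).trans h2))

/-- **the component lemma** -/
theorem Rts.quasi (h : Rts p R) (hgen : sSup R = ⊤) {X : Subgroup L} (hX : X ∈ R) :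
    ⁅Mc X, Mc X⁆ = Mc X ∧ ∀ N : Subgroup L, N ≤ Mc X → (∀ m ∈ Mc X, ∀ n ∈ N, m * n * m⁻¹ ∈ N) →
      N = Mc X ∨ ∀ m ∈ Mc X, ∀ n ∈ N, m * n = n * m := by
  have hM := Mc_normal X
  have htop := h.sup_eq_top hgen (X := X)
  have hnorm : ∀ N : Subgroup L, N ≤ Mc X → (∀ m ∈ Mc X, ∀ n ∈ N, m * n * m⁻¹ ∈ N) → N.Normal := by
    intro N hN hMN
    constructor
    intro n hn g
    have hg : g ∈ Mc X ⊔ Subgroup.centralizer (Mc X : Set L) := by rw [htop]; trivial
    obtain ⟨m, hm, c, hc, rfl⟩ := Subgroup.mem_sup_of_normal_left.1 hg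
    have h1 : c * n * c⁻¹ = n := by
      rw [← Subgroup.mem_centralizer_iff.1 hc n (hN hn), mul_assoc, mul_inv_cancel, mul_one]
    have h2 : m * c * n * (m * c)⁻¹ = m * (c * n * c⁻¹) * m⁻¹ := by group
    rw [h2, h1]
    exact hMN m hm n hn
  refine ⟨?_, fun N hN hMN => ?_⟩
  · apply le_antisymm
    · exact Subgroup.commutator_le_right _ _
    · have hC : (⁅Mc X, Mc X⁆ : Subgroup L).Normal := Subgroup.commutator_normal _ _
      apply Mc_le hC
      obtain ⟨g, hg⟩ := h.exists_not_pgroup hX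
      have hg' : g ∈ Mc X ⊔ Subgroup.centralizer (Mc X : Set L) := by rw [htop]; trivial
      obtain ⟨m, hm, c, hc, rfl⟩ := Subgroup.mem_sup_of_normal_left.1 hg'
      have h1 : cj c X = X := by
        ext y
        rw [mem_cj]
        constructor
        · intro hy
          have h3 := Subgroup.mem_centralizer_iff.1 hc _ (le_Mc X hy)
          have h4 : y = c⁻¹ * y * c := by
            have h5 : c⁻¹ * y * c * c = y * c := by
              rw [h3]
              group
            have h6 := mul_right_cancel h5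
            exact h6.symm
          rw [h4]
          exact hy
        · intro hy
          have h3 := Subgroup.mem_centralizer_iff.1 hc _ (le_Mc X hy)
          have h4 : c⁻¹ * y * c = y := by rw [mul_assoc, h3, inv_mul_cancel_left]
          rw [h4]
          exact hy
      rw [cj_mul, h1] at hg
      rcases h.pair X hX (cj m X) (h.conj X hX m) with h2 | h2
      · exact absurd h2 hg
      · apply h2 _ hC
        rintro _ ⟨x, hx, rfl⟩
        change m * x * m⁻¹ ∈ _
        have h3 : m * x * m⁻¹ = (m * x * m⁻¹ * x⁻¹) * x := by group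
        rw [h3]
        exact Subgroup.mul_mem _ (Subgroup.mem_sup_right (Subgroup.commutator_mem_commutator hm (le_Mc X hx)))
          (Subgroup.mem_sup_left hx)
  · rcases h.Mc_le_or_comm (hnorm N hN hMN) hX with h1 | h1
    · exact Or.inl (le_antisymm hN h1)
    · refine Or.inr fun m hm n hn => ?_
      exact (Subgroup.mem_centralizer_iff.1 (h1 hm) n hn).symm

/-- `M / Z(M)` is simple -/
theorem Rts.simple (h : Rts p R) (hgen : sSup R = ⊤) {X : Subgroup L} (hX : X ∈ R) :
    IsSimpleGroup (Mc X ⧸ Subgroup.center (Mc X)) ∧ ¬ IsMulCommutative (Mc X ⧸ Subgroup.center (Mc X)) := by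
  obtain ⟨hperf, hq⟩ := h.quasi hgen hX
  set M := Mc X with hM
  have hperf' : commutator M = ⊤ := by
    rw [eq_top_iff]
    rintro ⟨d, hd⟩ -
    have h6 : d ∈ ⁅M, M⁆ := by rw [hperf]; exact hd
    have h7 : (commutator M).map M.subtype = ⁅M, M⁆ := by
      rw [commutator_def, Subgroup.map_commutator, ← MonoidHom.range_eq_map, Subgroup.range_subtype]
    rw [← h7] at h6
    obtain ⟨e, he, hed⟩ := h6
    have h8 : e = ⟨d, hd⟩ := Subtype.ext hed
    rwa [← h8]
  -- `M` is not commutative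
  have hZ : Subgroup.center M ≠ ⊤ := by
    intro hZ
    have h1 : commutator M = ⊥ := by
      rw [commutator_def, Subgroup.commutator_eq_bot_iff_le_centralizer]
      intro m _
      rw [Subgroup.mem_centralizer_iff]
      intro n _
      have h2 : n ∈ Subgroup.center M := by rw [hZ]; trivial
      exact (Subgroup.mem_center_iff.1 h2 m).symm
    rw [hperf'] at h1
    have h2 : X ≤ ⊥ := by
      intro x hx
      have h3 : (⟨x, le_Mc X hx⟩ : M) ∈ (⊤ : Subgroup M) := trivial
      rw [h1, Subgroup.mem_bot] at h3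
      exact congrArg Subtype.val h3
    exact h.ne X hX (le_bot_iff.1 h2)
  have hnt : Nontrivial (M ⧸ Subgroup.center M) := QuotientGroup.nontrivial_iff.2 hZ
  refine ⟨⟨fun K hK => ?_⟩, ?_⟩
  · -- the preimage
    let N : Subgroup M := K.comap (QuotientGroup.mk' (Subgroup.center M))
    have hN : N.Normal := hK.comap _
    have h1 := hq (N.map M.subtype) (by
      rintro _ ⟨n, hn, rfl⟩
      exact n.2) (by
      rintro m hm _ ⟨n, hn, rfl⟩
      exact ⟨⟨m, hm⟩ * n * ⟨m, hm⟩⁻¹, hN.conj_mem n hn ⟨m, hm⟩, rfl⟩)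
    rcases h1 with h1 | h1
    · right
      rw [eq_top_iff]
      intro y _
      obtain ⟨m, rfl⟩ := QuotientGroup.mk'_surjective (Subgroup.center M) y
      have h2 : (m : L) ∈ N.map M.subtype := by rw [h1]; exact m.2
      obtain ⟨n, hn, hnm⟩ := h2
      have h3 : n = m := Subtype.ext hnm
      rw [← h3]
      exact hn
    · left
      rw [eq_bot_iff]
      intro y hy
      obtain ⟨m, rfl⟩ := QuotientGroup.mk'_surjective (Subgroup.center M) y
      rw [Subgroup.mem_bot]
      apply (QuotientGroup.eq_one_iff m).2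
      rw [Subgroup.mem_center_iff]
      intro k
      exact Subtype.ext (h1 k k.2 m ⟨m, hy, rfl⟩)
  · intro hc
    have h1 : commutator (M ⧸ Subgroup.center M) = ⊤ := by
      have h2 : (commutator M).map (QuotientGroup.mk' (Subgroup.center M)) = commutator (M ⧸ Subgroup.center M) := by
        rw [commutator_def, Subgroup.map_commutator, ← MonoidHom.range_eq_map,
          MonoidHom.range_eq_top.2 (QuotientGroup.mk'_surjective _), commutator_def]
      rw [← h2, hperf', ← MonoidHom.range_eq_map, MonoidHom.range_eq_top.2 (QuotientGroup.mk'_surjective _)]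
    have h3 : commutator (M ⧸ Subgroup.center M) = ⊥ := by
      rw [commutator_def, Subgroup.commutator_eq_bot_iff_le_centralizer]
      intro m _
      rw [Subgroup.mem_centralizer_iff]
      intro n _
      exact hc.is_comm.comm n m
    rw [h1] at h3
    obtain ⟨a, ha⟩ := exists_ne (1 : M ⧸ Subgroup.center M)
    have h4 : a ∈ (⊤ : Subgroup (M ⧸ Subgroup.center M)) := trivial
    rw [h3, Subgroup.mem_bot] at h4
    exact ha h4

end main

end Cfsg.Agent.H398.RG
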