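import Cfsg.Agent.H398.RG.Base
import Cfsg.Agent.KFacts.RgdSL
import Cfsg.Agent.UGT.U2.FOne.FFourComb
import Cfsg.Agent.BpExc.Tow
import Cfsg.Prelude.Def_EvenType

/-!
# S3509: the condition on the base pair, a line of long roots (helper398)

`H : Tow cs h p T n X`, `X₀ = XL X β ⊓ fix α` of prime order, `Y₀ = XL X (-β) ⊓ fix α`, `γ` with `⟨γ, β⟩ = 1`, `A2` planes, and
`α`-fixed nontrivial elements of `K` in `XL X γ`, `XL X (-γ)`: `cond_line : Cond K X₀ Y₀`.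
-/

set_option autoImplicit false
set_option linter.unusedSectionVars false

namespace Cfsg.Agent.H398.RG

open Cfsg CoxeterSystem Cfsg.Agent.ChevalleyStructure.CoxeterGeom Cfsg.Agent.Tits.Roots Cfsg.Agent.Tits.Core
  Cfsg.Agent.Nodes.Reps Cfsg.Agent.Nodes.BNOf Cfsg.Agent.Nodes.StabComb Cfsg.Agent.Nodes.Coroot
  Cfsg.Agent.KFacts.RgdSL Cfsg.Agent.BpExc.Tow Cfsg.Agent.UGT.U2.FOne.FFour Cfsg.Agent.Nodes.PosPair
open scoped commutatorElement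

variable {I W Y : Type*} [Fintype I] [DecidableEq I] [Group W] [Finite W] [Group Y] {M : CoxeterMatrix I}
  {cs : CoxeterSystem M W} {A : I → I → ℤ} {h : IsCartan M A} {p : ℕ}
  {J : Type*} [Preorder J] {T : J → Subgroup Y} {n : I → Y} {X : J → (I → ℤ) → Subgroup Y}

section A2L

variable (H : Tow cs h p T n X) {x y : I → ℤ} (hA : A2 cs h x y)

include H

theorem exists_level2 {a b : I → ℤ} {u v : Y} (hu : u ∈ XL X a) (hv : v ∈ XL X b) : ∃ j, u ∈ X j a ∧ v ∈ X j b := by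
  obtain ⟨j1, h1⟩ := H.mem_XL.1 hu
  obtain ⟨j2, h2⟩ := H.mem_XL.1 hv
  obtain ⟨j, a1, a2⟩ := H.dir j1 j2
  exact ⟨j, H.monoX a a1 h1, H.monoX b a2 h2⟩

include hA

/-- `⁅u, v⁆ ∈ X (x + y)` -/
theorem commL_mem {u v : Y} (hu : u ∈ XL X x) (hv : v ∈ XL X y) : ⁅u, v⁆ ∈ XL X (x + y) := by
  obtain ⟨j, h1, h2⟩ := exists_level2 H hu hv
  exact le_XL j _ (A2.comm_mem (H.rgd j) hA h1 h2)

theorem commL_ne {u v : Y} (hu : u ∈ XL X x) (hu1 : u ≠ 1) (hv : v ∈ XL X y) (hv1 : v ≠ 1) : ⁅u, v⁆ ≠ 1 := by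
  obtain ⟨j, h1, h2⟩ := exists_level2 H hu hv
  exact A2.comm_ne_one (H.rgd j) hA h1 hu1 h2 hv1

theorem commL_right {u v : Y} (hu : u ∈ XL X (x + y)) (hv : v ∈ XL X y) : u * v = v * u := by
  obtain ⟨j, h1, h2⟩ := exists_level2 H hu hv
  exact A2.comm_right (H.rgd j) hA h1 h2

end A2L

theorem fix_comm {α : MulAut Y} {u v : Y} (hu : α u = u) (hv : α v = v) : α ⁅u, v⁆ = ⁅u, v⁆ := by
  rw [commutatorElement_def, map_mul, map_mul, map_mul, map_inv, map_inv, hu, hv]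

/-- a subgroup of prime order meeting `N` nontrivially -/
theorem le_of_prime {G : Type*} [Group G] {p : ℕ} (hp : p.Prime) {X N : Subgroup G} (hX : Nat.card X = p) {ξ : G}
    (hξ : ξ ∈ X) (hξ1 : ξ ≠ 1) (hξN : ξ ∈ N) : X ≤ N := by
  have hord : orderOf ξ = p := by
    have h2 : orderOf ξ ∣ p := by
      rw [← hX]
      exact X.orderOf_dvd_natCard hξ
    rcases (Nat.dvd_prime hp).1 h2 with h3 | h3
    · exact absurd (orderOf_eq_one_iff.1 h3) hξ1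
    · exact h3
  have hfinX : Finite X := Nat.finite_of_card_ne_zero (by rw [hX]; exact hp.pos.ne')
  have hz : Subgroup.zpowers ξ = X := by
    apply Subgroup.eq_of_le_of_card_ge ((Subgroup.zpowers_le).2 hξ)
    rw [hX, Nat.card_zpowers, hord]
  rw [← hz]
  exact (Subgroup.zpowers_le).2 hξN

/-- if `y = x n` and `v` commutes with `y`, then `[v, x] ∈ N` -/
theorem comm_mem_of {G : Type*} [Group G] {M N : Subgroup G} (hMN : ∀ m ∈ M, ∀ n ∈ N, m * n * m⁻¹ ∈ N) {x y n v : G}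
    (hy : y ∈ M) (hv : v ∈ M) (hn : n ∈ N) (he : y = x * n) (hc : v * y = y * v) : ⁅v, x⁆ ∈ N := by
  have e1 : x = y * n⁻¹ := by rw [he]; group
  have e2 : ⁅v, x⁆ = y * ((v * n⁻¹ * v⁻¹) * n) * y⁻¹ := by
    rw [commutatorElement_def, e1]
    calc v * (y * n⁻¹) * v⁻¹ * (y * n⁻¹)⁻¹ = (v * y) * (n⁻¹ * v⁻¹ * n) * y⁻¹ := by group
      _ = (y * v) * (n⁻¹ * v⁻¹ * n) * y⁻¹ := by rw [hc]
      _ = _ := by group
  rw [e2]
  exact hMN y hy _ (N.mul_mem (hMN v hv _ (N.inv_mem hn)) hn)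

theorem comm_mem_left {G : Type*} [Group G] {M N : Subgroup G} (hMN : ∀ m ∈ M, ∀ n ∈ N, m * n * m⁻¹ ∈ N) {m n : G}
    (hm : m ∈ M) (hn : n ∈ N) : ⁅n, m⁆ ∈ N := by
  have e : ⁅n, m⁆ = n * (m * n⁻¹ * m⁻¹) := by rw [commutatorElement_def]; group
  rw [e]
  exact N.mul_mem hn (hMN m hm _ (N.inv_mem hn))

theorem comm_mem_MK {G : Type*} [Group G] {K X : Subgroup G} {m k : G} (hm : m ∈ MK K X) (hk : k ∈ K) :
    ⁅m, k⁆ ∈ MK K X := by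
  have e : ⁅m, k⁆ = m * (k * m⁻¹ * k⁻¹) := by rw [commutatorElement_def]; group
  rw [e]
  exact (MK K X).mul_mem hm (conj_MK hk ((MK K X).inv_mem hm))

theorem comm_mem_MK' {G : Type*} [Group G] {K X : Subgroup G} {m k : G} (hm : m ∈ MK K X) (hk : k ∈ K) :
    ⁅k, m⁆ ∈ MK K X := by
  rw [← commutatorElement_inv]
  exact (MK K X).inv_mem (comm_mem_MK hm hk)

/-- **(L) The line condition.** -/
theorem cond_line (H : Tow cs h p T n X) {α : MulAut Y} {K X₀ Y₀ : Subgroup Y} {β γ : I → ℤ}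
    (h1 : A2 cs h γ (-β)) (h2 : A2 cs h (γ - β) β) (h3 : A2 cs h β (-γ)) (h4 : A2 cs h γ (β - γ))
    (hX₀ : ∀ u, u ∈ X₀ ↔ u ∈ XL X β ∧ α u = u) (hY₀ : ∀ u, u ∈ Y₀ → u ∈ XL X (-β) ∧ α u = u)
    {q : ℕ} (hq : q.Prime) (hXq : Nat.card X₀ = q) (hXK : X₀ ≤ K) (hYne : Y₀ ≠ ⊥) (hYM : Y₀ ≤ MK K X₀)
    {w w' : Y} (hw : w ∈ XL X γ) (hw1 : w ≠ 1) (hwα : α w = w) (hwK : w ∈ K)
    (hw' : w' ∈ XL X (-γ)) (hw'1 : w' ≠ 1) (hw'α : α w' = w') (hw'K : w' ∈ K) : Cond K X₀ Y₀ := by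
  intro N hN hMN hY
  have hXM := le_MK K X₀
  obtain ⟨⟨x0, hx0⟩, hx01⟩ : ∃ x : X₀, x ≠ 1 := by
    have : Nontrivial X₀ := by
      have hf : Finite X₀ := Nat.finite_of_card_ne_zero (by rw [hXq]; exact hq.pos.ne')
      exact Finite.one_lt_card_iff_nontrivial.1 (by rw [hXq]; exact hq.one_lt)
    exact exists_ne 1
  have hx01 : x0 ≠ 1 := fun h => hx01 (Subtype.ext h)
  obtain ⟨⟨y, hy⟩, hy1⟩ := Subgroup.ne_bot_iff_exists_ne_one.1 hYne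
  have hy1 : y ≠ 1 := fun h => hy1 (Subtype.ext h)
  obtain ⟨hyX, hyα⟩ := hY₀ y hy
  obtain ⟨x, hx, n', hn', he⟩ := hY y hy
  -- `v = ⁅w, y⁆ ∈ X (γ - β)`
  have hv : ⁅w, y⁆ ∈ XL X (γ - β) := by
    have := commL_mem H h1 hw hyX
    rwa [← sub_eq_add_neg] at this
  have hv1 : ⁅w, y⁆ ≠ 1 := commL_ne H h1 hw hw1 hyX hy1
  have hvM : ⁅w, y⁆ ∈ MK K X₀ := comm_mem_MK' (hYM hy) hwK
  have hvα : α ⁅w, y⁆ = ⁅w, y⁆ := fix_comm hwα hyα
  have hvy : ⁅w, y⁆ * y = y * ⁅w, y⁆ := commL_right H h1 (commL_mem H h1 hw hyX) hyX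
  have hx0' := (hX₀ x0).1 hx0
  have key : ∀ v x' : Y, v ∈ XL X (γ - β) → v ≠ 1 → x' ∈ XL X β → x' ≠ 1 → ⁅v, x'⁆ ∈ XL X γ ∧ ⁅v, x'⁆ ≠ 1 := by
    intro v x' h5 h6 h7 h8
    refine ⟨?_, commL_ne H h2 h5 h6 h7 h8⟩
    have := commL_mem H h2 h5 h7
    rwa [sub_add_cancel] at this
  -- `ξ ∈ N`
  obtain ⟨ξ, hξN, hξ, hξ1, hξα⟩ : ∃ ξ ∈ N, ξ ∈ XL X γ ∧ ξ ≠ 1 ∧ α ξ = ξ := by
    by_cases hx1 : x = 1
    · have hyN : y ∈ N := by rw [he, hx1, one_mul]; exact hn'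
      -- `m ∈ M ∩ X γ`
      obtain ⟨hm, hm1⟩ := key _ x0 hv hv1 hx0'.1 hx01
      have hmM : ⁅⁅w, y⁆, x0⁆ ∈ MK K X₀ := comm_mem_MK hvM (MK_le_self (fun u hu => hXK hu) (hXM hx0))
      have hmα : α ⁅⁅w, y⁆, x0⁆ = ⁅⁅w, y⁆, x0⁆ := fix_comm hvα hx0'.2
      have h5 : ⁅⁅⁅w, y⁆, x0⁆, y⁆ ∈ XL X (γ - β) := by
        have := commL_mem H h1 hm hyX
        rwa [← sub_eq_add_neg] at this
      have h6 : ⁅⁅⁅w, y⁆, x0⁆, y⁆ ≠ 1 := commL_ne H h1 hm hm1 hyX hy1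
      have h7 : ⁅⁅⁅w, y⁆, x0⁆, y⁆ ∈ N := by
        rw [← commutatorElement_inv]
        exact N.inv_mem (comm_mem_left hMN hmM hyN)
      obtain ⟨h8, h9⟩ := key _ x0 h5 h6 hx0'.1 hx01
      exact ⟨_, comm_mem_left hMN (hXM hx0) h7, h8, h9, fix_comm (fix_comm hmα hyα) hx0'.2⟩
    · have hx' := (hX₀ x).1 hx
      obtain ⟨h8, h9⟩ := key _ x hv hv1 hx'.1 hx1
      exact ⟨_, comm_mem_of hMN (hYM hy) hvM hn' he hvy, h8, h9, fix_comm hvα hx'.2⟩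
  -- `v' = ⁅x0, w'⁆ ∈ X (β - γ)`
  have hv' : ⁅x0, w'⁆ ∈ XL X (β - γ) := by
    have := commL_mem H h3 hx0'.1 hw'
    rwa [← sub_eq_add_neg] at this
  have hv'1 : ⁅x0, w'⁆ ≠ 1 := commL_ne H h3 hx0'.1 hx01 hw' hw'1
  have hv'M : ⁅x0, w'⁆ ∈ MK K X₀ := comm_mem_MK (hXM hx0) hw'K
  have hζ : ⁅ξ, ⁅x0, w'⁆⁆ ∈ XL X β := by
    have := commL_mem H h4 hξ hv'
    rwa [add_sub_cancel] at this
  have hζ1 : ⁅ξ, ⁅x0, w'⁆⁆ ≠ 1 := commL_ne H h4 hξ hξ1 hv' hv'1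
  have hζN : ⁅ξ, ⁅x0, w'⁆⁆ ∈ N := comm_mem_left hMN hv'M hξN
  have hζX : ⁅ξ, ⁅x0, w'⁆⁆ ∈ X₀ := (hX₀ _).2 ⟨hζ, fix_comm hξα (fix_comm hx0'.2 hw'α)⟩
  exact le_of_prime hq hXq hζX hζ1 hζN

/-! ### the planes -/

/-- a reflected root -/
theorem a2_line (hn : NoThree cs h) {β γ : I → ℤ} (hβ : IsRoot cs h β) (hγ : IsRoot cs h γ)
    (hc : cpr cs h γ β = 1) (hc' : cpr cs h β γ = 1) :
    A2 cs h γ (-β) ∧ A2 cs h (γ - β) β ∧ A2 cs h β (-γ) ∧ A2 cs h γ (β - γ) := by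
  have := Fintype.ofFinite W
  have key : ∀ x y : I → ℤ, IsRoot cs h x → IsRoot cs h y → cpr cs h x y = 1 → cpr cs h y x = 1 →
      A2 cs h x (-y) ∧ A2 cs h (x - y) y := by
    intro x y hx hy h1 h2
    have hN := form_eq_of hx hy (by rw [h1, h2]) (by rw [h1]; norm_num)
    have e1 := two_form_cpr cs h x hy
    have e2 := form_comm cs h x y
    have p1 := form_pos cs h hx.ne_zero
    rw [h1] at e1
    have hxy := isRoot_sub hx hy h1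
    refine ⟨a2_of_noThree hn hx hy.neg (by rw [cpr_neg_right cs h x hy, h1]) (by rw [cpr_neg_left _ hx, h2]), ?_⟩
    refine a2_of_noThree hn hxy hy ?_ ?_
    · rw [sub_eq_add_neg, cpr_add cs h _ _ hy, cpr_neg_left _ hy, cpr_self cs h hy, h1]
      norm_num
    · have hneg : ∀ u v : I → ℤ, form cs h (-u) v = - form cs h u v := by
        intro u v
        have h3 := form_add_left cs h u (-u) v
        rw [add_neg_cancel] at h3
        have h4 : form cs h 0 v = 0 := by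
          have h5 := form_add_left cs h 0 0 v
          rw [add_zero] at h5
          linarith
        linarith
      have k1 : form cs h (x - y) (x - y) = form cs h x x := by
        rw [sub_eq_add_neg, form_add_left, hneg, form_comm cs h x, form_comm cs h y, form_add_left, form_add_left, hneg,
          hneg, form_comm cs h y x]
        linarith
      have k2 : 2 * form cs h y (x - y) = -form cs h x x := by
        rw [form_comm cs h y, sub_eq_add_neg, form_add_left, hneg]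
        linarith
      have k3 := two_form_cpr cs h y hxy
      rw [k1, k2] at k3
      have k4 : (-1) * form cs h x x = cpr cs h y (x - y) * form cs h x x := by rw [neg_one_mul]; exact k3
      exact (mul_right_cancel₀ p1.ne' k4).symm
  obtain ⟨h1, h2⟩ := key γ β hγ hβ hc hc'
  obtain ⟨h3, h4⟩ := key β γ hβ hγ hc' hc
  exact ⟨h1, h2, h3, h4.symm⟩

/-- **(L) The line condition** in a root system without `G₂`. -/
theorem cond_line' (H : Tow cs h p T n X) {α : MulAut Y} {K X₀ Y₀ : Subgroup Y} {β γ : I → ℤ}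
    (hn : NoThree cs h) (hβ : IsRoot cs h β) (hγ : IsRoot cs h γ)
    (hc : cpr cs h γ β = 1) (hc' : cpr cs h β γ = 1)
    (hX₀ : ∀ u, u ∈ X₀ ↔ u ∈ XL X β ∧ α u = u) (hY₀ : ∀ u, u ∈ Y₀ → u ∈ XL X (-β) ∧ α u = u)
    {q : ℕ} (hq : q.Prime) (hXq : Nat.card X₀ = q) (hXK : X₀ ≤ K) (hYne : Y₀ ≠ ⊥) (hYM : Y₀ ≤ MK K X₀)
    {w w' : Y} (hw : w ∈ XL X γ) (hw1 : w ≠ 1) (hwα : α w = w) (hwK : w ∈ K)
    (hw' : w' ∈ XL X (-γ)) (hw'1 : w' ≠ 1) (hw'α : α w' = w') (hw'K : w' ∈ K) : Cond K X₀ Y₀ := by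
  obtain ⟨h1, h2, h3, h4⟩ := a2_line hn hβ hγ hc hc'
  exact cond_line H h1 h2 h3 h4 hX₀ hY₀ hq hXq hXK hYne hYM hw hw1 hwα hwK hw' hw'1 hw'α hw'K

/-- simply laced root systems have no `G₂` -/
theorem noThree_of_SL (hs : SL cs h) : NoThree cs h := by
  intro x y hx hy h1
  rw [← hs x y hx hy] at h1
  have h2 : cpr cs h x y ≤ 1 ∧ -1 ≤ cpr cs h x y := by constructor <;> nlinarith
  obtain ⟨h3, h4⟩ := h2
  interval_cases cpr cs h x y <;> omega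

end Cfsg.Agent.H398.RG
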