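import Cfsg.Agent.H398.RG.Orb
import Cfsg.Agent.H398.RG.Line
import Cfsg.Agent.H441.RG.NrmK

/-!
# S3509: the condition on the base pair in the frame, line case (helper398)

The frame of `H28/RG/Form`, `H441/RG/NrmK`; `S = Sx t`, `X₀ = XL X β ⊓ fix α`, `Y₀ = XL X (-β) ⊓ fix α`.

* `stabS_Sx` : `StabS` for `Sx t`;
* `cond_L` : the line condition for a `θ`-fixed `c ∈ Sx t` with `⟨c, β⟩ = 1`.
-/

set_option autoImplicit false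
set_option linter.unusedSectionVars false

namespace Cfsg.Agent.H398.RG

open Cfsg CoxeterSystem Cfsg.Agent.ChevalleyStructure.CoxeterGeom Cfsg.Agent.Tits.Roots Cfsg.Agent.Tits.Core
  Cfsg.Agent.Nodes.Reps Cfsg.Agent.Nodes.BNOf Cfsg.Agent.Nodes.StabComb Cfsg.Agent.Nodes.Coroot
  Cfsg.Agent.Nodes.Bruhat
  Cfsg.Agent.KFacts.RgdSL Cfsg.Agent.BpExc.Tow Cfsg.Agent.BpExc.TorCent Cfsg.Agent.UGT.U2.FOne.FFour
  Cfsg.Agent.H28.RG Cfsg.Agent.H441.RG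
open scoped commutatorElement

variable {I W Y : Type*} [Fintype I] [DecidableEq I] [Group W] [Finite W] [Group Y] {M : CoxeterMatrix I}
  {cs : CoxeterSystem M W} {A : I → I → ℤ} {h : IsCartan M A} {p : ℕ}
  {J : Type*} [Preorder J] {T : J → Subgroup Y} {n : I → Y} {X : J → (I → ℤ) → Subgroup Y}
  {F : Type*} [Field F] {χ : (I → ℤ) → Y → F} {α : MulAut Y} {θ : (I → ℤ) ≃+ (I → ℤ)} {t : Y}

/-- `StabS` for `Sx t` -/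
theorem stabS_Sx (hA : ChAdd cs h (TL T) χ) (ht : t ∈ TL T) (hroot : ∀ a, IsRoot cs h (θ a) ↔ IsRoot cs h a)
    (hS : ∀ a ∈ Sx cs h χ t, θ a ∈ Sx cs h χ t) (hpos : ∀ a ∈ Sx cs h χ t, 0 ≤ a → 0 ≤ θ a) :
    StabS cs h (Sx cs h χ t) θ := by
  obtain ⟨φ, h0, hφ, hφa⟩ := hA t ht
  refine ⟨fun a ha => ha.1, ?_, ?_, hroot, hS, hpos⟩
  · intro a ha
    refine ⟨ha.1.neg, ?_⟩
    rw [hφa _ ha.1.neg]
    have h1 := hφ a (-a)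
    rw [add_neg_cancel, h0, ← hφa _ ha.1, ha.2, one_mul] at h1
    exact h1.symm
  · intro a ha b hb hr
    refine ⟨hr, ?_⟩
    rw [hφa _ hr]
    have h1 := hφ (a - b) b
    rw [sub_add_cancel, ← hφa _ ha.1, ha.2, ← hφa _ hb.1, hb.2, mul_one] at h1
    exact h1.symm

/-- fixed elements of root groups of `Sx t` lie in `P`, `Q` -/
theorem mem_PQ {a : I → ℤ} (ha : a ∈ Sx cs h χ t) {u : Y} (hu : u ∈ XL X a) (hα : α u = u) :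
    u ∈ PP0 cs h X χ α t ⊔ QQ0 cs h X χ α t := by
  rcases ha.1.pos_or_neg with h0 | h0
  · exact Subgroup.mem_sup_left (mem_PP0.2 ⟨RGD.le_Sup (S := SP cs h χ t) ⟨ha, h0⟩ hu, hα⟩)
  · exact Subgroup.mem_sup_right (mem_QQ0.2 ⟨RGD.le_Sup (S := SN cs h χ t) ⟨ha, h0⟩ hu, hα⟩)

/-- **The line case.** -/
theorem cond_L (H : Tow cs h p T n X) (hA : ChAdd cs h (TL T) χ) (ht : t ∈ TL T) (hn : NoThree cs h)
    {K X₀ Y₀ : Subgroup Y} {β c : I → ℤ} (hβ : IsRoot cs h β) (hc : c ∈ Sx cs h χ t)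
    (h1 : cpr cs h c β = 1) (h2 : cpr cs h β c = 1)
    (hne : ∀ a ∈ Sx cs h χ t, θ a = a → ∃ u ∈ XL X a, u ≠ 1 ∧ α u = u) (hθc : θ c = c)
    (hX₀ : ∀ u, u ∈ X₀ ↔ u ∈ XL X β ∧ α u = u) (hY₀ : ∀ u, u ∈ Y₀ → u ∈ XL X (-β) ∧ α u = u)
    {q : ℕ} (hq : q.Prime) (hXq : Nat.card X₀ = q) (hXK : X₀ ≤ K) (hYne : Y₀ ≠ ⊥) (hYM : Y₀ ≤ MK K X₀)
    (hPQ : PP0 cs h X χ α t ⊔ QQ0 cs h X χ α t ≤ K) : Cond K X₀ Y₀ := by
  have hc' : -c ∈ Sx cs h χ t := by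
    obtain ⟨φ, h0, hφ, hφa⟩ := hA t ht
    refine ⟨hc.1.neg, ?_⟩
    rw [hφa _ hc.1.neg]
    have h1 := hφ c (-c)
    rw [add_neg_cancel, h0, ← hφa _ hc.1, hc.2, one_mul] at h1
    exact h1.symm
  obtain ⟨w, hw, hw1, hwα⟩ := hne c hc hθc
  obtain ⟨w', hw', hw'1, hw'α⟩ := hne (-c) hc' (by rw [map_neg, hθc])
  exact cond_line' H hn hβ hc.1 h1 h2 hX₀ hY₀ hq hXq hXK hYne hYM hw hw1 hwα (hPQ (mem_PQ hc hw hwα)) hw' hw'1 hw'α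
    (hPQ (mem_PQ hc' hw' hw'α))

end Cfsg.Agent.H398.RG
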