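import Cfsg.Agent.H398.RG.CondL
import Cfsg.Agent.H398.RG.OrbF
import Cfsg.Agent.H169.RG.MPsi
import Cfsg.Agent.H380.RG.Zee
import Cfsg.Agent.H441.RG.CentTF
import Cfsg.Agent.H899.RG.Short
import Cfsg.Agent.H900.Fra.Wey

/-!
# S3509: the condition on the base pair in the frame of `H169/RG/MPsi.lean` (helper398)

`d : Wk.DFr hp cs r e α θ t`, `β` a long `θ`-fixed top of `Sx t`, `K = KT = ⟨P, Q, T^α⟩`, `X₀ = X_β^α`, `Y₀ = X_{-β}^α`,
`Γ = {a ∈ Sx t | β - a root}`.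

* `cond_sl` : simply laced; `r ^ e ≥ 4`, or `r ^ e = 3` and `Γ` nonempty, or `r ^ e = 2` and `|Γ| ≥ 3`;
* `cond_F4` : `F₄`; `r ^ e ≥ 4`, or `r ^ e = 3` and `Γ` nonempty;
* `cond_sl_nc` : `cond_sl` with the cardinality of `Γ`; `dfr_weak`, `hiso_F4` : the hypotheses for a torus form.
-/

set_option autoImplicit false
set_option linter.unusedSectionVars false

namespace Cfsg.Agent.H398.RG

open CoxeterSystem Cfsg Cfsg.Lie Cfsg.Lie.ChevalleyDatum
open Cfsg.Agent.ChevalleyStructure Cfsg.Agent.ChevalleyStructure.Elts Cfsg.Agent.ChevalleyStructure.CoxeterGeom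
  Cfsg.Agent.ChevalleyStructure.CoxeterGeomTypes Cfsg.Agent.ChevalleyStructure.NPerm
open Cfsg.Agent.Tits.Roots Cfsg.Agent.Tits.Core Cfsg.Agent.Nodes Cfsg.Agent.Nodes.Reps Cfsg.Agent.Nodes.BNOf
  Cfsg.Agent.Nodes.RGDChev Cfsg.Agent.Nodes.Bruhat Cfsg.Agent.Nodes.NormalForm Cfsg.Agent.Nodes.Coroot
open Cfsg.Agent.KFacts.RgdField Cfsg.Agent.KFacts.RgdChevCoord Cfsg.Agent.KFacts.RgdSL
open Cfsg.Agent.BpExc Cfsg.Agent.BpExc.TorCent Cfsg.Agent.BpExc.TorChev Cfsg.Agent.BpExc.Tow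
  Cfsg.Agent.BpExc.TowChev Cfsg.Agent.BpExc.Fr Cfsg.Agent.BpExc.Pair Cfsg.Agent.BpExc.LangFr Cfsg.Agent.GpExc.Field
  Cfsg.Agent.BpExc.NInst Cfsg.Agent.BpExc.NChev
open Cfsg.Agent.ChevalleyStructure.SL2Hom (up lo)
open Cfsg.Agent.H28.RG Cfsg.Agent.H169.RG Cfsg.Agent.H380.RG
open Cfsg.Agent.H441.RG hiding KT
open Cfsg.Agent.H469.Exc Cfsg.Agent.H316.U6 Cfsg.Agent.H818.Mono Cfsg.Agent.H496.Mono Cfsg.Agent.H655.Mono
open Cfsg.Agent.UGT.U2.FOne.FFour (NoThree)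
open scoped commutatorElement

/-! ### roots -/

section Roots

variable {I W : Type*} [Fintype I] [DecidableEq I] [Group W] [Finite W] {M : CoxeterMatrix I}
  {cs : CoxeterSystem M W} {A : I → I → ℤ} {h : IsCartan M A}

/-- the neighbours of a long root -/
theorem cpr_eq_one {a β : I → ℤ} (hβ : Lg cs h β) (ha : IsRoot cs h a) (hr : IsRoot cs h (β - a)) :
    cpr cs h a β = 1 := by
  have h2 : ∀ b : I → ℤ, b = (2 : ℤ) • β → ¬ IsRoot cs h b := by
    intro b hb hr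
    have := isUnit_of_smul cs h hr 2 hb
    rw [Int.isUnit_iff] at this
    omega
  have h1 : cpr cs h (β - a) β = 2 - cpr cs h a β := by
    rw [sub_eq_add_neg, cpr_add cs h _ _ hβ.1, cpr_neg cs h _ hβ.1, cpr_self cs h hβ.1]; ring
  have e1 : a ≠ β := by
    rintro rfl
    exact hr.ne_zero (sub_self _)
  have e2 : a ≠ -β := by
    rintro rfl
    exact h2 _ (by module) hr
  have e3 : β - a ≠ β := fun h => ha.ne_zero (sub_eq_self.1 h)
  have e4 : β - a ≠ -β := fun h => h2 a (by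
    have : a = β - (β - a) := by abel
    rw [this, h]; module) ha
  have h3 := hβ.2 a ha e1 e2
  have h4 := hβ.2 _ hr e3 e4
  rw [h1] at h4
  rw [abs_le] at h3 h4
  omega

/-- a neighbour of the same length is long -/
theorem lg_of_nb {a β : I → ℤ} (hβ : Lg cs h β) (ha : IsRoot cs h a) (h1 : cpr cs h a β = 1) (h2 : cpr cs h β a = 1) :
    Lg cs h a := by
  obtain ⟨s, hs⟩ := Cfsg.Agent.Nodes.KindBase.exists_refl cs h ha
  obtain ⟨s', hs'⟩ := Cfsg.Agent.Nodes.KindBase.exists_refl cs h hβ.1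
  have h3 : rep cs h s β = β - a := by rw [hs, h2, one_smul]
  have h6 : cpr cs h (β - a) β = 1 := by
    rw [sub_eq_add_neg, cpr_add cs h _ _ hβ.1, cpr_neg cs h _ hβ.1, cpr_self cs h hβ.1, h1]
    norm_num
  have h4 : rep cs h s' (β - a) = -a := by
    rw [hs', h6]
    module
  have h5 := ((hβ.act s).act s').neg
  rwa [h3, h4, neg_neg] at h5

end Roots

/-! ### the frame -/

section Frame

variable {I W Y : Type*} [Fintype I] [DecidableEq I] [Group W] [Finite W] [Group Y] {M : CoxeterMatrix I}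
  {cs : CoxeterSystem M W} {A : I → I → ℤ} {h : IsCartan M A} {p : ℕ}
  {J : Type*} [Preorder J] {T : J → Subgroup Y} {n : I → Y} {X : J → (I → ℤ) → Subgroup Y}
  {F : Type*} [Field F] {χ : (I → ℤ) → Y → F} {α : MulAut Y} {θ : (I → ℤ) ≃+ (I → ℤ)} {t : Y}

/-- products of elements of root groups of the same sign -/
theorem mul_mem_PQ {a b : I → ℤ} (ha : a ∈ Sx cs h χ t) (hb : b ∈ Sx cs h χ t) (hs : 0 ≤ a → 0 ≤ b) (hs' : a ≤ 0 → b ≤ 0)
    {u v : Y} (hu : u ∈ XL X a) (hv : v ∈ XL X b) (hα : α (u * v) = u * v) :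
    u * v ∈ PP0 cs h X χ α t ⊔ QQ0 cs h X χ α t := by
  rcases ha.1.pos_or_neg with h0 | h0
  · exact Subgroup.mem_sup_left (mem_PP0.2 ⟨mul_mem (RGD.le_Sup (S := SP cs h χ t) ⟨ha, h0⟩ hu)
      (RGD.le_Sup (S := SP cs h χ t) ⟨hb, hs h0⟩ hv), hα⟩)
  · exact Subgroup.mem_sup_right (mem_QQ0.2 ⟨mul_mem (RGD.le_Sup (S := SN cs h χ t) ⟨ha, h0⟩ hu)
      (RGD.le_Sup (S := SN cs h χ t) ⟨hb, hs' h0⟩ hv), hα⟩)

end Frame

/-! ### the Chevalley group -/

section TF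

variable {D : ChevalleyDatum} {l : ℕ} {M : CoxeterMatrix (Fin l)} {hp : IsType D l M} {r : ℕ} [hr : Fact r.Prime]
  {e : ℕ} {α : MulAut ↥(D.group (KK r))} {θ : (Fin l → ℤ) ≃+ (Fin l → ℤ)} {t : ↥(D.group (KK r))} {β : Fin l → ℤ}

variable (d : Wk.DFr hp M.toCoxeterSystem r e α θ t) (Bβ : Top M.toCoxeterSystem hp.isCartan (ch hp) θ t β)

include d

theorem stabF : StabS M.toCoxeterSystem hp.isCartan (Sx M.toCoxeterSystem hp.isCartan (ch hp) t) θ := by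
  have := finite_W hp M.toCoxeterSystem
  exact stabS_Sx (cwD d).hA (cwD d).ht d.fr.root (fun a ha => (d.stab a).2 ha) d.pos

theorem exists_neF {a : Fin l → ℤ} (ha : IsRoot M.toCoxeterSystem hp.isCartan a) (hθ : θ a = a) :
    ∃ u ∈ XX D l (KK r) a, u ≠ 1 ∧ α u = u := by
  have h1 := (img_fr (hp := hp) d.he d.frob d.fr ha hθ).ne_bot
  obtain ⟨u, hu1⟩ := Subgroup.ne_bot_iff_exists_ne_one.1 h1
  exact ⟨u, u.2.1, fun h => hu1 (Subtype.ext h), u.2.2⟩

theorem PQ_leF : PP0 M.toCoxeterSystem hp.isCartan (Xj hp (k := KK r)) (ch hp) α t ⊔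
    QQ0 M.toCoxeterSystem hp.isCartan (Xj hp (k := KK r)) (ch hp) α t ≤ KT hp α t := by
  rw [PP0_eq (locFin r), QQ0_eq (locFin r)]
  exact le_sup_left

/-- the products `g · α g` -/
theorem mem_pair {a : Fin l → ℤ} (ha : a ∈ Sx M.toCoxeterSystem hp.isCartan (ch hp) t)
    (hL : Lg M.toCoxeterSystem hp.isCartan a) (h0 : cpr M.toCoxeterSystem hp.isCartan (θ a) a = 0)
    {g : ↥(D.group (KK r))} (hg : g ∈ XX D l (KK r) a) (hα : α (α g) = g) : g * α g ∈ KT hp α t := by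
  have := finite_W hp M.toCoxeterSystem
  have h1 := (stabF d).mem a ha
  have h2 : α g ∈ XX D l (KK r) (θ a) := (d.fr.map a ha.1 g).2 hg
  obtain ⟨x, hx⟩ := (mem_XX_iff (hp := hp) (cs := M.toCoxeterSystem) ha.1).1 hg
  obtain ⟨y, hy⟩ := (mem_XX_iff (hp := hp) (cs := M.toCoxeterSystem) h1.1).1 h2
  have h3 : Commute (xc hp a x) (xc hp (θ a) y) := comm_of hp M.toCoxeterSystem hL h1.1 h0.ge x y
  rw [← hy, ← hx] at h3
  refine PQ_leF d (mul_mem_PQ ha h1 (d.pos a ha) (fun h => ?_) ?_ ?_ ?_)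
  · have h4 := d.pos _ ((stabF d).neg a ha) (neg_nonneg.2 h)
    rwa [map_neg, neg_nonneg] at h4
  · rw [XL_eq hp (locFin r)]
    exact hg
  · rw [XL_eq hp (locFin r)]
    exact h2
  · rw [map_mul, hα]
    exact h3.eq.symm

variable [Finite ↥(fixC α t)]

include Bβ

theorem conjYF : XF l α (-β) ≤ MK (KT hp α t) (XF l α β) := by
  obtain ⟨k, hk, e⟩ := (baseF d Bβ).conjY
  rw [← e]
  exact cj_le_MK hk

theorem neYF : XF l α (-β) ≠ ⊥ :=
  (img_fr (hp := hp) d.he d.frob d.fr Bβ.mem.1.neg (by rw [map_neg, Bβ.fix])).ne_bot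

/-- **a fixed neighbour, the line case** -/
theorem cond_line_F (hn : NoThree M.toCoxeterSystem hp.isCartan) (hq : (r ^ e).Prime) {c : Fin l → ℤ}
    (hc : c ∈ Sx M.toCoxeterSystem hp.isCartan (ch hp) t) (h1 : cpr M.toCoxeterSystem hp.isCartan c β = 1)
    (h2 : cpr M.toCoxeterSystem hp.isCartan β c = 1) (h3 : θ c = c) :
    Cond (KT hp α t) (XF l α β) (XF l α (-β)) := by
  have := finite_W hp M.toCoxeterSystem
  have T := tow (k := KK r) hp M.toCoxeterSystem (locFin r) r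
  refine cond_L T (cwD d).hA (cwD d).ht hn Bβ.mem.1 hc h1 h2 (fun a ha hθa => ?_) h3 (fun u => ?_)
    (fun u hu => ?_) hq (imgK_XF d Bβ).img.card (baseF d Bβ).leX (neYF d Bβ) (conjYF d Bβ) (PQ_leF d)
  · obtain ⟨u, hu, hu1, huα⟩ := exists_neF d ha.1 hθa
    refine ⟨u, ?_, hu1, huα⟩
    rw [XL_eq hp (locFin r)]
    exact hu
  · rw [XL_eq hp (locFin r)]
    exact Iff.rfl
  · rw [XL_eq hp (locFin r)]
    exact hu

/-- **orthogonal neighbours** -/
theorem cond_orth_F (hq : r ^ e = r) (hβ : Lg M.toCoxeterSystem hp.isCartan β) {c : Fin l → ℤ}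
    (hc : c ∈ Sx M.toCoxeterSystem hp.isCartan (ch hp) t)
    (hL : Lg M.toCoxeterSystem hp.isCartan c) (hL' : Lg M.toCoxeterSystem hp.isCartan (θ c))
    (h1 : cpr M.toCoxeterSystem hp.isCartan c β = 1) (h1' : cpr M.toCoxeterSystem hp.isCartan (θ c) β = 1)
    (h2 : θ (θ c) = c) (h3 : cpr M.toCoxeterSystem hp.isCartan c (θ c) = 0) :
    Cond (KT hp α t) (XF l α β) (XF l α (-β)) := by
  have := finite_W hp M.toCoxeterSystem
  have C : Cfg hp M.toCoxeterSystem β (-c) (-θ c) := by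
    refine ⟨hβ, hL.neg, hL'.neg, ?_, ?_, ?_⟩
    · rw [cpr_neg_right _ _ _ hL.1, hβ.symm hL, h1]
    · rw [cpr_neg_right _ _ _ hL'.1, hβ.symm hL', h1']
    · rw [cpr_neg_right _ _ _ hL'.1, cpr_neg _ _ _ hL'.1, h3]; norm_num
  have h3' : cpr M.toCoxeterSystem hp.isCartan (θ c) c = 0 := by rw [hL'.symm hL, h3]
  have hβc : IsRoot M.toCoxeterSystem hp.isCartan (β - c) := by
    have := C.lu.1
    rwa [neg_add_eq_sub] at this
  refine condU d.frob hq d.fr C Bβ.fix (map_neg θ c) (by rw [map_neg, h2]) (fun u => Iff.rfl)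
    (fun u hu => hu) (neYF d Bβ) (conjYF d Bβ) (fun g hg hg2 => ?_) (fun g hg hg2 => ?_) (fun g hg hg2 => ?_)
  · refine mem_pair d ((stabF d).neg c hc) hL.neg ?_ hg hg2
    rw [map_neg, cpr_neg_right _ _ _ hL.1, cpr_neg _ _ _ hL.1, h3']
    norm_num
  · rw [neg_neg] at hg
    exact mem_pair d hc hL h3' hg hg2
  · refine mem_pair d ?_ C.lu ?_ hg hg2
    · have := (stabF d).sub β Bβ.mem c hc hβc
      rwa [← neg_add_eq_sub] at this
    · rw [map_add, map_neg, Bβ.fix, C.lu'.symm C.lu]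
      exact C.uu

/-- **two neighbours with sum `β`** -/
theorem cond_hyp_F (hr3 : r = 3) (hq : r ^ e = r) (hβ : Lg M.toCoxeterSystem hp.isCartan β) {a : Fin l → ℤ}
    (ha : a ∈ Sx M.toCoxeterSystem hp.isCartan (ch hp) t) (hL : Lg M.toCoxeterSystem hp.isCartan a)
    (h1 : cpr M.toCoxeterSystem hp.isCartan a β = 1) (h2 : a + θ a = β) :
    Cond (KT hp α t) (XF l α β) (XF l α (-β)) := by
  have := finite_W hp M.toCoxeterSystem
  refine condZ_lg (hp := hp) (cs := M.toCoxeterSystem) hr3 d.frob hq d.fr hβ hL h1 Bβ.fix h2 (fun u => Iff.rfl)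
    (fun u => Iff.rfl) (conjYF d Bβ) (fun g₁ hg₁ g₂ hg₂ g₃ hg₃ hf => ?_)
  have ha' := (stabF d).mem a ha
  have h0 : 0 ≤ a := by
    rcases ha.1.pos_or_neg with h0 | h0
    · exact h0
    · exfalso
      have h4 := d.pos _ ((stabF d).neg a ha) (neg_nonneg.2 h0)
      rw [map_neg, neg_nonneg] at h4
      have h5 : β ≤ 0 := by
        rw [← h2]
        exact add_nonpos h0 h4
      exact Bβ.mem.1.not_pos_neg Bβ.pos h5
  refine PQ_leF d (Subgroup.mem_sup_left (mem_PP0.2 ⟨mul_mem (mul_mem ?_ ?_) ?_, hf⟩))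
  · refine RGD.le_Sup (S := SP M.toCoxeterSystem hp.isCartan (ch hp) t) ⟨ha, h0⟩ ?_
    rw [XL_eq hp (locFin r)]
    exact hg₁
  · refine RGD.le_Sup (S := SP M.toCoxeterSystem hp.isCartan (ch hp) t) ⟨ha', d.pos a ha h0⟩ ?_
    rw [XL_eq hp (locFin r)]
    exact hg₂
  · refine RGD.le_Sup (S := SP M.toCoxeterSystem hp.isCartan (ch hp) t) ⟨Bβ.mem, Bβ.pos⟩ ?_
    rw [XL_eq hp (locFin r)]
    exact hg₃

omit [Finite ↥(fixC α t)] Bβ d in
theorem pow_cases (he : 0 < e) : 4 ≤ r ^ e ∨ (r ^ e = 2 ∧ r = 2) ∨ r ^ e = 3 ∧ r = 3 := by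
  have h1 := hr.out.two_le
  have h2 : r ≤ r ^ e := Nat.le_self_pow he.ne' r
  by_cases h4 : 4 ≤ r ^ e
  · exact Or.inl h4
  right
  have h5 : r = 2 ∨ r = 3 := by omega
  rcases h5 with rfl | rfl
  · rcases Nat.lt_or_ge 1 e with h6 | h6
    · have : 2 ^ 2 ≤ 2 ^ e := Nat.pow_le_pow_right (by norm_num) h6
      omega
    · have : e = 1 := by omega
      subst this
      left
      norm_num
  · have : 3 ^ e = 3 := by omega
    exact Or.inr ⟨this, rfl⟩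

/-- **the long neighbours** -/
theorem cond_long_F (hn : NoThree M.toCoxeterSystem hp.isCartan) (hβ : Lg M.toCoxeterSystem hp.isCartan β)
    (hq : r ^ e = r) (hr3 : r = 3) {S : Set (Fin l → ℤ)} (hS : ∀ a ∈ S, a ∈ Sx M.toCoxeterSystem hp.isCartan (ch hp) t)
    (hSL : ∀ a ∈ S, Lg M.toCoxeterSystem hp.isCartan a) (Hs : StabS M.toCoxeterSystem hp.isCartan S θ) (hβS : β ∈ S)
    {a : Fin l → ℤ} (ha : a ∈ S) (h1 : cpr M.toCoxeterSystem hp.isCartan a β = 1) :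
    Cond (KT hp α t) (XF l α β) (XF l α (-β)) := by
  have := finite_W hp M.toCoxeterSystem
  have hs : ∀ x ∈ S, ∀ y ∈ S, cpr M.toCoxeterSystem hp.isCartan x y = cpr M.toCoxeterSystem hp.isCartan y x :=
    fun x hx y hy => (hSL x hx).symm (hSL y hy)
  have hqp : (r ^ e).Prime := by rw [hq]; exact hr.out
  rcases Hs.orb' hs hβS Bβ.fix ha h1 with ⟨c, hc, hc1, hcθ⟩ | ⟨c, hc, hc1, hc2, -, hc0⟩ | h3
  · exact cond_line_F d Bβ hn hqp (hS c hc) hc1 (by rw [hβ.symm (hSL c hc), hc1]) hcθ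
  · refine cond_orth_F d Bβ hq hβ (hS c hc) (hSL c hc) (hSL _ (Hs.mem c hc)) hc1 ?_ hc2 hc0
    have := Hs.cpr_theta hs hc hβS
    rw [Bβ.fix] at this
    rw [this, hc1]
  · exact cond_hyp_F d Bβ hr3 hq hβ (hS a ha) (hSL a ha) h1 h3

/-- **Simply laced root systems.** -/
theorem cond_sl (hs : SL M.toCoxeterSystem hp.isCartan)
    (h2 : r ^ e = 2 → ∃ a ∈ Sx M.toCoxeterSystem hp.isCartan (ch hp) t, IsRoot M.toCoxeterSystem hp.isCartan (β - a) ∧
      ∃ b ∈ Sx M.toCoxeterSystem hp.isCartan (ch hp) t, IsRoot M.toCoxeterSystem hp.isCartan (β - b) ∧ b ≠ a ∧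
        b ≠ β - a)
    (h3 : r ^ e = 3 → ∃ a ∈ Sx M.toCoxeterSystem hp.isCartan (ch hp) t, IsRoot M.toCoxeterSystem hp.isCartan (β - a)) :
    Cond (KT hp α t) (XF l α β) (XF l α (-β)) := by
  have := finite_W hp M.toCoxeterSystem
  have Lβ : Lg M.toCoxeterSystem hp.isCartan β := lg_of_sl (hp := hp) hs Bβ.mem.1
  have hn := noThree_of_SL hs
  have hss : ∀ x ∈ Sx M.toCoxeterSystem hp.isCartan (ch hp) t, ∀ y ∈ Sx M.toCoxeterSystem hp.isCartan (ch hp) t,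
      cpr M.toCoxeterSystem hp.isCartan x y = cpr M.toCoxeterSystem hp.isCartan y x :=
    fun x hx y hy => hs x y hx.1 hy.1
  rcases pow_cases (r := r) (e := e) d.he with h4 | ⟨h4, h5⟩ | ⟨h4, h5⟩
  · exact cond_big d Bβ h4
  · obtain ⟨a, ha, ha1, b, hb, hb1, hab, hab'⟩ := h2 h4
    have hq : r ^ e = r := h4.trans h5.symm
    have hqp : (r ^ e).Prime := by rw [hq]; exact hr.out
    rcases (stabF d).orb3' hss Bβ.mem Bβ.fix ha (cpr_eq_one Lβ ha.1 ha1) hb (cpr_eq_one Lβ hb.1 hb1) hab hab' with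
      ⟨c, hc, hc1, hcθ⟩ | ⟨c, hc, hc1, hc2, -, hc0⟩
    · exact cond_line_F d Bβ hn hqp hc hc1 (by rw [hs β c Bβ.mem.1 hc.1, hc1]) hcθ
    · have hc' := (stabF d).mem c hc
      refine cond_orth_F d Bβ hq Lβ hc (lg_of_sl (hp := hp) hs hc.1) (lg_of_sl (hp := hp) hs hc'.1) hc1 ?_ hc2 hc0
      have := (stabF d).cpr_theta hss hc Bβ.mem
      rw [Bβ.fix] at this
      rw [this, hc1]
  · obtain ⟨a, ha, ha1⟩ := h3 h4
    exact cond_long_F d Bβ hn Lβ (h4.trans h5.symm) h5 (fun a ha => ha) (fun a ha => lg_of_sl (hp := hp) hs ha.1)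
      (stabF d) Bβ.mem ha (cpr_eq_one Lβ ha.1 ha1)

/-- `cond_sl`, the cardinality of `Γ` -/
theorem cond_sl_nc (hs : SL M.toCoxeterSystem hp.isCartan)
    (h2 : r ^ e = 2 → 3 ≤ {a | a ∈ Sx M.toCoxeterSystem hp.isCartan (ch hp) t ∧
      IsRoot M.toCoxeterSystem hp.isCartan (β - a)}.ncard)
    (h3 : r ^ e = 3 → 1 ≤ {a | a ∈ Sx M.toCoxeterSystem hp.isCartan (ch hp) t ∧
      IsRoot M.toCoxeterSystem hp.isCartan (β - a)}.ncard) :
    Cond (KT hp α t) (XF l α β) (XF l α (-β)) := by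
  refine cond_sl d Bβ hs (fun h4 => ?_) fun h4 => ?_
  · obtain ⟨G, hG⟩ : ∃ G, G = {a | a ∈ Sx M.toCoxeterSystem hp.isCartan (ch hp) t ∧
      IsRoot M.toCoxeterSystem hp.isCartan (β - a)} := ⟨_, rfl⟩
    have h5 := h2 h4
    rw [← hG] at h5
    have hfin : G.Finite := Set.finite_of_ncard_pos (by omega)
    obtain ⟨a, ha⟩ : G.Nonempty := by
      rw [← Set.ncard_pos hfin]
      omega
    have h6 : ¬ G ⊆ {a, β - a} := fun h7 => by
      have h8 := Set.ncard_le_ncard h7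
      have h9 := Set.ncard_insert_le a {β - a}
      rw [Set.ncard_singleton] at h9
      omega
    obtain ⟨b, hb, hb'⟩ := Set.not_subset.1 h6
    rw [hG] at ha hb
    rw [Set.mem_insert_iff, Set.mem_singleton_iff, not_or] at hb'
    exact ⟨a, ha.1, ha.2, b, hb.1, hb.2, hb'.1, hb'.2⟩
  · obtain ⟨a, ha⟩ := Set.nonempty_of_ncard_ne_zero (Nat.one_le_iff_ne_zero.1 (h3 h4))
    exact ⟨a, ha.1, ha.2⟩

end TF

section Tor

universe v

variable {D : ChevalleyDatum} {l : ℕ} {M : CoxeterMatrix (Fin l)} {hp : IsType D l M} {r q : ℕ} [hr : Fact r.Prime]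
  {K₀ : Type v} [Group K₀] {m : MData hp r q K₀} {s : ↥(D.group (KK r))}

/-- the weak frame of a torus form -/
theorem dfr_weak (f : TorForm m s) : Wk.DFr hp M.toCoxeterSystem r m.e f.α f.θ f.t :=
  ⟨m.he, f.frob, f.fr, f.mem, f.stab, f.pos⟩

/-- `θ` is an isometry if the diagram automorphism is trivial -/
theorem hiso_of_refl (f : TorForm m s) (hg : ∀ v, m.g v = v) (a b : Fin l → ℤ)
    (hb : IsRoot M.toCoxeterSystem hp.isCartan b) :
    cpr M.toCoxeterSystem hp.isCartan (f.θ a) (f.θ b) = cpr M.toCoxeterSystem hp.isCartan a b := by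
  have := finite_W hp M.toCoxeterSystem
  rw [f.hθ, f.hθ, hg, hg]
  exact cpr_rep _ _ _ _ hb

end Tor

section FF

variable {M : CoxeterMatrix (Fin 4)} {hp : IsType chevF4 4 M} {r : ℕ} [hr : Fact r.Prime]
  {e : ℕ} {α : MulAut ↥(chevF4.group (KK r))} {θ : (Fin 4 → ℤ) ≃+ (Fin 4 → ℤ)} {t : ↥(chevF4.group (KK r))}
  {β : Fin 4 → ℤ}

variable (d : Wk.DFr hp M.toCoxeterSystem r e α θ t) (Bβ : Top M.toCoxeterSystem hp.isCartan (ch hp) θ t β)
  [Finite ↥(fixC α t)]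

include d Bβ

/-- **`F₄`, `q ≥ 3`.** -/
theorem cond_F4 (hiso : ∀ a b, IsRoot M.toCoxeterSystem hp.isCartan a → IsRoot M.toCoxeterSystem hp.isCartan b →
      cpr M.toCoxeterSystem hp.isCartan (θ a) (θ b) = cpr M.toCoxeterSystem hp.isCartan a b)
    (hβ : Lg M.toCoxeterSystem hp.isCartan β) (h3 : 3 ≤ r ^ e)
    (h3' : r ^ e = 3 → ∃ a ∈ Sx M.toCoxeterSystem hp.isCartan (ch hp) t, IsRoot M.toCoxeterSystem hp.isCartan (β - a)) :
    Cond (KT hp α t) (XF 4 α β) (XF 4 α (-β)) := by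
  have := finite_W hp M.toCoxeterSystem
  rcases pow_cases (r := r) (e := e) d.he with h4 | ⟨h4, h5⟩ | ⟨h4, h5⟩
  · exact cond_big d Bβ h4
  · omega
  · obtain ⟨a, ha, ha1⟩ := h3' h4
    have hq : r ^ e = r := h4.trans h5.symm
    have h6 := cpr_eq_one hβ ha.1 ha1
    obtain rfl := Cfsg.Agent.H900.Fra.eq_F4 hp
    have hn : NoThree (CoxeterMatrix.F₄).toCoxeterSystem hp.isCartan := Cfsg.Agent.UGT.U2.FOne.FFour.noThree _
    have h7 : cpr (CoxeterMatrix.F₄).toCoxeterSystem hp.isCartan β a = 1 ∨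
        cpr (CoxeterMatrix.F₄).toCoxeterSystem hp.isCartan β a = 2 := by
      have e1 : β ≠ a := by
        rintro rfl
        exact ha1.ne_zero (sub_self _)
      have e2 : β ≠ -a := by
        rintro rfl
        rw [cpr_neg_right _ _ _ ha.1, cpr_self _ _ ha.1] at h6
        omega
      have e3 := cpr_mul_lt Bβ.mem.1 ha.1 e1 e2
      have e4 := hn β a Bβ.mem.1 ha.1
      have := Fintype.ofFinite (CoxeterMatrix.F₄).Group
      have e5 : 0 < cpr (CoxeterMatrix.F₄).toCoxeterSystem hp.isCartan β a := by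
        rw [cpr_pos_iff _ _ β ha.1, form_comm, ← cpr_pos_iff _ _ a Bβ.mem.1, h6]
        norm_num
      rw [h6] at e3 e4
      omega
    rcases h7 with h7 | h7
    · have hL := lg_of_nb hβ ha.1 h6 h7
      exact cond_long_F d Bβ hn hβ hq h5 (fun a ha => ha.1) (fun a ha => ha.2) (stab_long (stabF d) hiso)
        ⟨Bβ.mem, hβ⟩ ⟨ha, hL⟩ h6
    · have hθa := fix_short (stabF d) hiso Bβ.mem Bβ.fix ha h6 h7
      obtain ⟨w, hw, hw1, hwα⟩ := exists_neF d ha.1 hθa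
      obtain ⟨w', hw', hw'1, hw'α⟩ := exists_neF d ha.1.neg (by rw [map_neg, hθa])
      refine Cfsg.Agent.H899.RG.Short.cond_short (CoxeterMatrix.F₄).toCoxeterSystem ?_ Bβ.mem.1 ha.1 h6 h7
        (fun u => Iff.rfl) (fun u hu => hu) (by rw [hq]; exact hr.out) (imgK_XF d Bβ).img.card (baseF d Bβ).leX
        (neYF d Bβ) (conjYF d Bβ) hw hw1 hwα (PQ_leF d (mem_PQ ha (by rw [XL_eq hp (locFin r)]; exact hw) hwα)) hw' hw'1
        hw'α (PQ_leF d (mem_PQ ((stabF d).neg a ha) (by rw [XL_eq hp (locFin r)]; exact hw') hw'α))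
      subst h5
      intro h8
      have h9 : ((2 : ℕ) : KK 3) = 0 := by exact_mod_cast h8
      rw [CharP.cast_eq_zero_iff (KK 3) 3] at h9
      omega

end FF

end Cfsg.Agent.H398.RG
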