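import Cfsg.Agent.KFacts.RgdSL

/-!
# S3509: orbits of a graph automorphism on the neighbours of a fixed root (helper398)

`S` a closed symmetric set of roots, simply laced (`⟨x, y⟩ = ⟨y, x⟩` on `S`), `θ` an automorphism of the lattice preserving the roots, `S` and
the positive roots of `S`; `β ∈ S` fixed by `θ`; `Γ = {γ ∈ S | ⟨γ, β⟩ = 1}`.

* `orb` : if `Γ` is nonempty, some `γ ∈ Γ` is fixed by `θ`, or `θ² γ = γ` and `γ ⟂ θ γ`, or `γ + θ γ = β`;
* `orb3` : if `Γ` contains `γ` and `γ' ≠ γ, β - γ`, one of the first two cases holds for some member of `Γ`.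
-/

set_option autoImplicit false
set_option linter.unusedSectionVars false

namespace Cfsg.Agent.H398.RG

open CoxeterSystem Cfsg.Agent.ChevalleyStructure.CoxeterGeom Cfsg.Agent.Tits.Roots Cfsg.Agent.Tits.Core
  Cfsg.Agent.Nodes.Reps Cfsg.Agent.Nodes.Coroot Cfsg.Agent.KFacts.RgdSL

variable {I W : Type*} [Fintype I] [DecidableEq I] [Group W] [Finite W] {M : CoxeterMatrix I}
  {cs : CoxeterSystem M W} {A : I → I → ℤ} {h : IsCartan M A}

/-- the situation -/
structure StabS (cs : CoxeterSystem M W) (h : IsCartan M A) (S : Set (I → ℤ)) (θ : (I → ℤ) ≃+ (I → ℤ)) : Prop where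
  rts : ∀ a ∈ S, IsRoot cs h a
  neg : ∀ a ∈ S, -a ∈ S
  sub : ∀ a ∈ S, ∀ b ∈ S, IsRoot cs h (a - b) → a - b ∈ S
  root : ∀ a, IsRoot cs h (θ a) ↔ IsRoot cs h a
  mem : ∀ a ∈ S, θ a ∈ S
  pos : ∀ a ∈ S, 0 ≤ a → 0 ≤ θ a

namespace StabS

variable {S : Set (I → ℤ)} {θ θ' : (I → ℤ) ≃+ (I → ℤ)}

theorem comp (H : StabS cs h S θ) (H' : StabS cs h S θ') : StabS cs h S (θ.trans θ') where
  rts := H.rts
  neg := H.neg
  sub := H.sub
  root a := (H'.root _).trans (H.root a)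
  mem a ha := H'.mem _ (H.mem a ha)
  pos a ha h0 := H'.pos _ (H.mem a ha) (H.pos a ha h0)

/-- `θ` has finite order on the roots -/
theorem exists_period (H : StabS cs h S θ) {a : I → ℤ} (ha : IsRoot cs h a) : ∃ m : ℕ, 0 < m ∧ (θ^[m]) a = a := by
  have hfin : Finite {b : I → ℤ // IsRoot cs h b} := by
    have h1 : {b : I → ℤ | IsRoot cs h b} ⊆ Set.range (fun wi : W × I => rep cs h wi.1 (sr wi.2)) := by
      rintro b ⟨w, i, rfl⟩
      exact ⟨(w, i), rfl⟩
    exact ((Set.finite_range _).subset h1).to_subtype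
  let f : {b : I → ℤ // IsRoot cs h b} → {b : I → ℤ // IsRoot cs h b} := fun b => ⟨θ b, (H.root _).2 b.2⟩
  have hf : Function.Injective f := by
    intro b c hbc
    exact Subtype.ext (θ.injective (congrArg Subtype.val hbc))
  have h2 : ∀ (m : ℕ) (b : {b : I → ℤ // IsRoot cs h b}), ((f^[m]) b : I → ℤ) = (θ^[m]) b := by
    intro m
    induction m with
    | zero => intro b; rfl
    | succ m ih => intro b; rw [Function.iterate_succ_apply, Function.iterate_succ_apply, ih]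
  obtain ⟨m, hm, hm'⟩ := hf.mem_periodicPts ⟨a, ha⟩
  refine ⟨m, hm, ?_⟩
  have h3 := congrArg Subtype.val hm'
  rw [h2] at h3
  exact h3

theorem iter_pos (H : StabS cs h S θ) {a : I → ℤ} (ha : a ∈ S) (h0 : 0 ≤ a) (m : ℕ) : (θ^[m]) a ∈ S ∧ 0 ≤ (θ^[m]) a := by
  induction m with
  | zero => exact ⟨ha, h0⟩
  | succ m ih =>
    rw [Function.iterate_succ_apply']
    exact ⟨H.mem _ ih.1, H.pos _ ih.1 ih.2⟩

/-- `a = b - θ b` is impossible for a root `a ∈ S` and a root `b` -/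
theorem no_diff_pos (H : StabS cs h S θ) {b : I → ℤ} (hb : IsRoot cs h b) (ha : b - θ b ∈ S) (h0 : 0 ≤ b - θ b) :
    False := by
  obtain ⟨m, hm, hm'⟩ := H.exists_period hb
  have h1 : ∀ j : ℕ, 0 ≤ b - (θ^[j]) b := by
    intro j
    induction j with
    | zero => simp
    | succ j ih =>
      have h2 := (H.iter_pos ha h0 j).2
      have h3 : (θ^[j]) (b - θ b) = (θ^[j]) b - (θ^[j + 1]) b := by
        rw [Function.iterate_succ_apply]
        have : ∀ (j : ℕ) (x y : I → ℤ), (θ^[j]) (x - y) = (θ^[j]) x - (θ^[j]) y := by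
          intro j
          induction j with
          | zero => intro x y; rfl
          | succ j ih' => intro x y; rw [Function.iterate_succ_apply, map_sub, ih', Function.iterate_succ_apply,
              Function.iterate_succ_apply]
        exact this j b (θ b)
      rw [h3] at h2
      have h4 : b - (θ^[j + 1]) b = (b - (θ^[j]) b) + ((θ^[j]) b - (θ^[j + 1]) b) := by abel
      rw [h4]
      exact add_nonneg ih h2
  -- `b - θ b ≤ b - θ^m b = 0`
  obtain ⟨k, rfl⟩ : ∃ k, m = k + 1 := ⟨m - 1, by omega⟩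
  have h5 : b - θ b ≤ 0 := by
    have h6 : ∀ j : ℕ, 0 ≤ θ b - (θ^[j + 1]) b := by
      intro j
      induction j with
      | zero => simp
      | succ j ih =>
        have h2 := (H.iter_pos ha h0 (j + 1)).2
        have this : ∀ (j : ℕ) (x y : I → ℤ), (θ^[j]) (x - y) = (θ^[j]) x - (θ^[j]) y := by
          intro j
          induction j with
          | zero => intro x y; rfl
          | succ j ih' => intro x y; rw [Function.iterate_succ_apply, map_sub, ih', Function.iterate_succ_apply,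
              Function.iterate_succ_apply]
        have h3 : (θ^[j + 1]) (b - θ b) = (θ^[j + 1]) b - (θ^[j + 1 + 1]) b := by
          rw [this, ← Function.iterate_succ_apply]
        rw [h3] at h2
        have h4 : θ b - (θ^[j + 1 + 1]) b = (θ b - (θ^[j + 1]) b) + ((θ^[j + 1]) b - (θ^[j + 1 + 1]) b) := by abel
        rw [h4]
        exact add_nonneg ih h2
    have h7 := h6 k
    rw [hm'] at h7
    have h8 : b - θ b = -(θ b - b) := by abel
    rw [h8]
    exact neg_nonpos.2 h7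
  have h9 : b - θ b = 0 := le_antisymm h5 h0
  exact (H.rts _ ha).ne_zero h9

theorem no_diff (H : StabS cs h S θ) {b : I → ℤ} (hb : IsRoot cs h b) (ha : b - θ b ∈ S) : False := by
  rcases (H.rts _ ha).pos_or_neg with h0 | h0
  · exact H.no_diff_pos hb ha h0
  · refine H.no_diff_pos (b := -b) hb.neg ?_ ?_
    · have := H.neg _ ha
      rwa [show -(b - θ b) = -b - θ (-b) by rw [map_neg]; abel] at this
    · have : -b - θ (-b) = -(b - θ b) := by rw [map_neg]; abel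
      rw [this]
      exact neg_nonneg.2 h0

/-- `θ a = - a` is impossible for `a ∈ S` -/
theorem no_neg (H : StabS cs h S θ) {a : I → ℤ} (ha : a ∈ S) (he : θ a = -a) : False := by
  have hr := H.rts _ ha
  rcases hr.pos_or_neg with h0 | h0
  · have h1 := H.pos _ ha h0
    rw [he] at h1
    exact hr.ne_zero (le_antisymm (neg_nonneg.1 h1) h0)
  · have h1 := H.pos _ (H.neg _ ha) (neg_nonneg.2 h0)
    rw [map_neg, he, neg_neg] at h1
    exact hr.ne_zero (le_antisymm h0 h1)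

/-- the product of two roots of the same length -/
theorem cases_of {x y : I → ℤ} (hx : IsRoot cs h x) (hy : IsRoot cs h y) (hs : cpr cs h x y = cpr cs h y x) :
    (x = y ∧ cpr cs h x y = 2) ∨ (x = -y ∧ cpr cs h x y = -2) ∨
      (x ≠ y ∧ x ≠ -y ∧ -1 ≤ cpr cs h x y ∧ cpr cs h x y ≤ 1) := by
  by_cases hxy : x = y
  · left
    subst hxy
    exact ⟨rfl, cpr_self cs h hx⟩
  by_cases hxy' : x = -y
  · right; left
    subst hxy'
    exact ⟨rfl, by rw [cpr_neg_left _ hy, cpr_self cs h hy]⟩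
  · right; right
    have h1 := cpr_mul_lt hx hy hxy hxy'
    rw [← hs] at h1
    refine ⟨hxy, hxy', ?_, ?_⟩ <;> nlinarith

variable (hs : ∀ x ∈ S, ∀ y ∈ S, cpr cs h x y = cpr cs h y x)

include hs

/-- `θ` is an isometry -/
theorem cpr_theta (H : StabS cs h S θ) {a b : I → ℤ} (ha : a ∈ S) (hb : b ∈ S) :
    cpr cs h (θ a) (θ b) = cpr cs h a b := by
  have k1 : ∀ {x y : I → ℤ}, x ∈ S → y ∈ S → x ≠ y → (IsRoot cs h (x - y) ↔ cpr cs h x y = 1) := by
    intro x y hx hy hxy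
    have hx' := H.rts _ hx
    have hy' := H.rts _ hy
    refine ⟨fun hr => ?_, isRoot_sub hx' hy'⟩
    have hd := H.sub _ hx _ hy hr
    have e1 : cpr cs h (x - y) x = 2 - cpr cs h x y := by
      rw [sub_eq_add_neg, cpr_add cs h _ _ hx', cpr_self cs h hx', cpr_neg_left _ hx', hs y hy x hx]; ring
    have e2 : cpr cs h (x - y) y = cpr cs h x y - 2 := by
      rw [sub_eq_add_neg, cpr_add cs h _ _ hy', cpr_neg_left _ hy', cpr_self cs h hy']; ring
    rcases cases_of hr hx' (hs _ hd _ hx) with h1 | h1 | h1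
    · exact absurd (sub_eq_self.1 h1.1) hy'.ne_zero
    · have h2 : y = (2 : ℤ) • x := by
        have : y = x - (x - y) := by abel
        rw [this, h1.1]; module
      have := isUnit_of_smul cs h hy' 2 h2
      rw [Int.isUnit_iff] at this
      omega
    · rcases cases_of hx' hy' (hs _ hx _ hy) with h2 | h2 | h2
      · exact absurd h2.1 hxy
      · omega
      · omega
  have k2 : ∀ {x y : I → ℤ}, x ∈ S → y ∈ S → x ≠ -y → (IsRoot cs h (x + y) ↔ cpr cs h x y = -1) := by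
    intro x y hx hy hxy
    have := k1 hx (H.neg _ hy) hxy
    rw [sub_neg_eq_add, cpr_neg_right cs h x (H.rts _ hy)] at this
    rw [this]
    constructor <;> intro h1 <;> omega
  have ha' := H.mem _ ha
  have hb' := H.mem _ hb
  have hra := H.rts _ ha
  have hrb := H.rts _ hb
  have hra' := H.rts _ ha'
  have hrb' := H.rts _ hb'
  rcases cases_of hra hrb (hs _ ha _ hb) with h1 | h1 | ⟨h1, h2, h3, h4⟩
  · rw [h1.1, cpr_self cs h hrb', cpr_self cs h hrb]
  · rw [h1.1, map_neg, cpr_neg_left _ hrb', cpr_neg_left _ hrb, cpr_self cs h hrb', cpr_self cs h hrb]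
  · have g1 : θ a ≠ θ b := fun h => h1 (θ.injective h)
    have g2 : θ a ≠ -θ b := fun h => h2 (θ.injective (by rw [h, map_neg]))
    rcases cases_of hra' hrb' (hs _ ha' _ hb') with h5 | h5 | ⟨-, -, h5, h6⟩
    · exact absurd h5.1 g1
    · exact absurd h5.1 g2
    · have m1 := (k1 ha' hb' g1).symm.trans ((by rw [← map_sub]; exact H.root _ : IsRoot cs h (θ a - θ b) ↔
        IsRoot cs h (a - b)).trans (k1 ha hb h1))
      have m2 := (k2 ha' hb' g2).symm.trans ((by rw [← map_add]; exact H.root _ : IsRoot cs h (θ a + θ b) ↔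
        IsRoot cs h (a + b)).trans (k2 ha hb h2))
      omega

/-- `S` is closed under sums -/
theorem add_mem (H : StabS cs h S θ) {a b : I → ℤ} (ha : a ∈ S) (hb : b ∈ S) (hr : IsRoot cs h (a + b)) : a + b ∈ S := by
  have := H.sub _ ha _ (H.neg _ hb) (by rwa [sub_neg_eq_add])
  rwa [sub_neg_eq_add] at this

/-- two members of `Γ` with product `-1` have sum `β` -/
theorem add_eq (H : StabS cs h S θ) {β a b : I → ℤ} (hβ : β ∈ S) (ha : a ∈ S) (hb : b ∈ S) (h1 : cpr cs h a β = 1)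
    (h2 : cpr cs h b β = 1) (h3 : cpr cs h a b = -1) : a + b = β := by
  have hβ' := H.rts _ hβ
  have hr := isRoot_add (H.rts _ ha) (H.rts _ hb) h3
  have h4 : cpr cs h (a + b) β = 2 := by
    rw [cpr_add cs h _ _ hβ', h1, h2]
    norm_num
  rcases cases_of hr hβ' (hs _ (H.add_mem hs ha hb hr) _ hβ) with h5 | h5 | h5
  · exact h5.1
  · omega
  · omega

/-- the products with the images -/
theorem cpr_le (H : StabS cs h S θ) {β a : I → ℤ} (hβ : β ∈ S) (hθ : θ β = β) (ha : a ∈ S) (h1 : cpr cs h a β = 1)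
    (hne : θ a ≠ a) : θ a ∈ S ∧ cpr cs h (θ a) β = 1 ∧ (cpr cs h a (θ a) = 0 ∨ a + θ a = β) := by
  have hβ' := H.rts _ hβ
  have ha' := H.rts _ ha
  have hb := H.mem _ ha
  have hb' := H.rts _ hb
  have h2 : cpr cs h (θ a) β = 1 := by
    have := H.cpr_theta hs ha hβ
    rw [hθ] at this
    rw [this, h1]
  refine ⟨hb, h2, ?_⟩
  rcases cases_of ha' hb' (hs _ ha _ hb) with h3 | h3 | ⟨-, -, h3, h4⟩
  · exact absurd h3.1.symm hne
  · exfalso
    rw [h3.1, cpr_neg_left _ hβ', h2] at h1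
    omega
  · have h5 : cpr cs h a (θ a) ≠ 1 := by
      intro h5
      exact H.no_diff ha' (H.sub _ ha _ hb (isRoot_sub ha' hb' h5))
    have h6 : cpr cs h a (θ a) = 0 ∨ cpr cs h a (θ a) = -1 := by omega
    rcases h6 with h6 | h6
    · exact Or.inl h6
    · exact Or.inr (H.add_eq hs hβ ha hb h1 h2 h6)

/-- **the orbits on `Γ`** -/
theorem orb' (H : StabS cs h S θ) {β a : I → ℤ} (hβ : β ∈ S) (hθ : θ β = β) (ha : a ∈ S) (h1 : cpr cs h a β = 1) :
    (∃ c ∈ S, cpr cs h c β = 1 ∧ θ c = c) ∨ (∃ c ∈ S, cpr cs h c β = 1 ∧ θ (θ c) = c ∧ θ c ≠ c ∧ cpr cs h c (θ c) = 0) ∨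
      a + θ a = β := by
  have hβ' := H.rts _ hβ
  have ha' := H.rts _ ha
  by_cases e1 : θ a = a
  · exact Or.inl ⟨a, ha, h1, e1⟩
  obtain ⟨hb, hbβ, h2 | h2⟩ := H.cpr_le hs hβ hθ ha h1 e1
  swap
  · exact Or.inr (Or.inr h2)
  have hb' := H.rts _ hb
  by_cases e2 : θ (θ a) = a
  · exact Or.inr (Or.inl ⟨a, ha, h1, e2, e1, h2⟩)
  have H2 := H.comp H
  obtain ⟨hc, hcβ, h3⟩ := H2.cpr_le hs hβ (by change θ (θ β) = β; rw [hθ, hθ]) ha h1 e2
  change θ (θ a) ∈ S at hc
  change cpr cs h (θ (θ a)) β = 1 at hcβ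
  change cpr cs h a (θ (θ a)) = 0 ∨ a + θ (θ a) = β at h3
  have hc' := H.rts _ hc
  have h4 : cpr cs h (θ a) (θ (θ a)) = 0 := by rw [H.cpr_theta hs ha hb, h2]
  have h3 : cpr cs h a (θ (θ a)) = 0 := by
    rcases h3 with h3 | h3
    · exact h3
    · exfalso
      -- `θ θ a = β - a`
      have h5 : θ (θ a) = β - a := by rw [← h3]; abel
      have h6 : cpr cs h (θ (θ a)) (θ a) = 1 := by
        rw [h5, sub_eq_add_neg, cpr_add cs h _ _ hb', cpr_neg_left _ hb', hs β hβ _ hb, hbβ, h2]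
        norm_num
      rw [hs _ hc _ hb, h4] at h6
      omega
  -- `β - a - θ a ∈ S`
  have g1 : β - a ∈ S := H.sub _ hβ _ ha (isRoot_sub hβ' ha' (by rw [hs β hβ a ha, h1]))
  have g1' := H.rts _ g1
  have p1 : ∀ {u : I → ℤ}, u ∈ S → cpr cs h u β = 1 → cpr cs h a u = 0 → cpr cs h (β - a) u = 1 := by
    intro u hu hu1 hu2
    have hu' := H.rts _ hu
    rw [sub_eq_add_neg, cpr_add cs h _ _ hu', cpr_neg_left _ hu', hs β hβ u hu, hu1, hu2]
    norm_num
  have g2 : β - a - θ a ∈ S := H.sub _ g1 _ hb (isRoot_sub g1' hb' (p1 hb hbβ h2))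
  have g2' := H.rts _ g2
  have p2 : ∀ {u : I → ℤ}, u ∈ S → cpr cs h u β = 1 → cpr cs h a u = 0 → cpr cs h (θ a) u = 0 →
      cpr cs h (β - a - θ a) u = 1 := by
    intro u hu hu1 hu2 hu3
    have hu' := H.rts _ hu
    rw [sub_eq_add_neg, cpr_add cs h _ _ hu', cpr_neg_left _ hu', p1 hu hu1 hu2, hu3]
    norm_num
  have g3 : β - a - θ a - θ (θ a) ∈ S := H.sub _ g2 _ hc (isRoot_sub g2' hc' (p2 hc hcβ h3 h4))
  have g3' := H.rts _ g3
  by_cases e3 : θ (θ (θ a)) = a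
  · -- the fixed root
    left
    refine ⟨-(β - a - θ a - θ (θ a)), H.neg _ g3, ?_, ?_⟩
    · rw [cpr_neg_left _ hβ', sub_eq_add_neg, cpr_add cs h _ _ hβ', sub_eq_add_neg, cpr_add cs h _ _ hβ', sub_eq_add_neg,
        cpr_add cs h _ _ hβ', cpr_self cs h hβ', cpr_neg_left _ hβ', cpr_neg_left _ hβ', cpr_neg_left _ hβ', h1, hbβ, hcβ]
      norm_num
    · rw [map_neg, map_sub, map_sub, map_sub, hθ, e3]
      abel
  exfalso
  have H3 := H2.comp H
  obtain ⟨hd, hdβ, h5⟩ := H3.cpr_le hs hβ (by change θ (θ (θ β)) = β; rw [hθ, hθ, hθ]) ha h1 e3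
  change θ (θ (θ a)) ∈ S at hd
  change cpr cs h (θ (θ (θ a))) β = 1 at hdβ
  change cpr cs h a (θ (θ (θ a))) = 0 ∨ a + θ (θ (θ a)) = β at h5
  have hd' := H.rts _ hd
  have h6 : cpr cs h (θ a) (θ (θ (θ a))) = 0 := by rw [H.cpr_theta hs ha hc, h3]
  have h5 : cpr cs h a (θ (θ (θ a))) = 0 := by
    rcases h5 with h5 | h5
    · exact h5
    · exfalso
      have h8 : θ (θ (θ a)) = β - a := by rw [← h5]; abel
      have h9 : cpr cs h (θ (θ (θ a))) (θ a) = 1 := by rw [h8]; exact p1 hb hbβ h2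
      rw [hs _ hd _ hb, h6] at h9
      omega
  -- `η = β - a - θ a`, `θ θ η = - η`
  have h8 : cpr cs h (β - θ (θ a) - θ (θ (θ a))) (β - a - θ a) = -2 := by
    have q1 : cpr cs h β (β - a - θ a) = 0 := by
      rw [hs _ hβ _ g2, sub_eq_add_neg, cpr_add cs h _ _ hβ', sub_eq_add_neg, cpr_add cs h _ _ hβ', cpr_self cs h hβ',
        cpr_neg_left _ hβ', cpr_neg_left _ hβ', h1, hbβ]
      norm_num
    have q2 : cpr cs h (θ (θ a)) (β - a - θ a) = 1 := by
      rw [hs _ hc _ g2]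
      exact p2 hc hcβ h3 h4
    have q3 : cpr cs h (θ (θ (θ a))) (β - a - θ a) = 1 := by
      rw [hs _ hd _ g2]
      exact p2 hd hdβ h5 h6
    rw [sub_eq_add_neg, cpr_add cs h _ _ g2', sub_eq_add_neg, cpr_add cs h _ _ g2', cpr_neg_left _ g2', cpr_neg_left _ g2',
      q1, q2, q3]
    norm_num
  have h9 : θ (θ (β - a - θ a)) = β - θ (θ a) - θ (θ (θ a)) := by
    rw [map_sub, map_sub, map_sub, map_sub, hθ, hθ]
  have h10 : β - θ (θ a) - θ (θ (θ a)) ∈ S := by
    rw [← h9]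
    exact H.mem _ (H.mem _ g2)
  rcases cases_of (H.rts _ h10) g2' (hs _ h10 _ g2) with h11 | h11 | h11
  · omega
  · exact H2.no_neg g2 (h9.trans h11.1)
  · omega

/-- `Γ` has more than two members -/
theorem orb3' (H : StabS cs h S θ) {β a b : I → ℤ} (hβ : β ∈ S) (hθ : θ β = β) (ha : a ∈ S) (h1 : cpr cs h a β = 1)
    (hb : b ∈ S) (h2 : cpr cs h b β = 1) (hab : b ≠ a) (hab' : b ≠ β - a) :
    (∃ c ∈ S, cpr cs h c β = 1 ∧ θ c = c) ∨ ∃ c ∈ S, cpr cs h c β = 1 ∧ θ (θ c) = c ∧ θ c ≠ c ∧ cpr cs h c (θ c) = 0 := by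
  rcases H.orb' hs hβ hθ ha h1 with h3 | h3 | h3
  · exact Or.inl h3
  · exact Or.inr h3
  rcases H.orb' hs hβ hθ hb h2 with h4 | h4 | h4
  · exact Or.inl h4
  · exact Or.inr h4
  exfalso
  have hβ' := H.rts _ hβ
  have ha' := H.rts _ ha
  have hb' := H.rts _ hb
  have e3 : θ a = β - a := by rw [← h3]; abel
  have e4 : θ b = β - b := by rw [← h4]; abel
  rcases cases_of hb' ha' (hs _ hb _ ha) with h5 | h5 | ⟨-, -, h5, h6⟩
  · exact hab h5.1
  · rw [h5.1, cpr_neg_left _ hβ', h1] at h2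
    omega
  · have h7 : cpr cs h b a = 1 ∨ cpr cs h b a = 0 ∨ cpr cs h b a = -1 := by omega
    rcases h7 with h7 | h7 | h7
    · have h8 := H.sub _ hb _ ha (isRoot_sub hb' ha' h7)
      refine H.no_neg h8 ?_
      rw [map_sub, e3, e4]
      abel
    · -- `β - a - b ∈ S`
      have g1 : β - a ∈ S := H.sub _ hβ _ ha (isRoot_sub hβ' ha' (by rw [hs β hβ a ha, h1]))
      have g2 : β - a - b ∈ S := by
        refine H.sub _ g1 _ hb (isRoot_sub (H.rts _ g1) hb' ?_)
        rw [sub_eq_add_neg, cpr_add cs h _ _ hb', cpr_neg_left _ hb', hs β hβ b hb, h2, hs a ha b hb, h7]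
        norm_num
      refine H.no_neg g2 ?_
      rw [map_sub, map_sub, hθ, e3, e4]
      abel
    · apply hab'
      have h8 := H.add_eq hs hβ hb ha h2 h1 h7
      rw [← h8]
      abel

omit hs

/-- **the orbits on `Γ`**, simply laced root system -/
theorem orb (hsl : SL cs h) (H : StabS cs h S θ) {β a : I → ℤ} (hβ : β ∈ S) (hθ : θ β = β) (ha : a ∈ S)
    (h1 : cpr cs h a β = 1) :
    (∃ c ∈ S, cpr cs h c β = 1 ∧ θ c = c) ∨ (∃ c ∈ S, cpr cs h c β = 1 ∧ θ (θ c) = c ∧ θ c ≠ c ∧ cpr cs h c (θ c) = 0) ∨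
      a + θ a = β := H.orb' (fun x hx y hy => hsl x y (H.rts _ hx) (H.rts _ hy)) hβ hθ ha h1

theorem orb3 (hsl : SL cs h) (H : StabS cs h S θ) {β a b : I → ℤ} (hβ : β ∈ S) (hθ : θ β = β) (ha : a ∈ S)
    (h1 : cpr cs h a β = 1) (hb : b ∈ S) (h2 : cpr cs h b β = 1) (hab : b ≠ a) (hab' : b ≠ β - a) :
    (∃ c ∈ S, cpr cs h c β = 1 ∧ θ c = c) ∨ ∃ c ∈ S, cpr cs h c β = 1 ∧ θ (θ c) = c ∧ θ c ≠ c ∧ cpr cs h c (θ c) = 0 :=
  H.orb3' (fun x hx y hy => hsl x y (H.rts _ hx) (H.rts _ hy)) hβ hθ ha h1 hb h2 hab hab'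

end StabS

end Cfsg.Agent.H398.RG
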